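import Cfsg.Agent.H110.Glue_mg
import Cfsg.Agent.H111.Pres
import Cfsg.Agent.H173.PresSix
import Cfsg.Agent.H363.TwoPrimes
set_option linter.all false

-- part: H110/GluePres
section
/-!
# The gluing theorem for presentations of alternating and symmetric groups (helper110, cluster S2284-S2297)

If `Alt (W + 2)` has a presentation with `k` generators and `m` relators and `W < N ≤ 2 W - 3` then `Alt (N + 2)` and
`Sym (N + 2)` have presentations with `k + 1` generators and `m + 3` relators.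
-/

set_option autoImplicit false

namespace Cfsg.Agent.H110.GluePres

open Equiv Equiv.Perm
open Cfsg.Agent.StdAlt.PermTypes (cyc cyc_conj cyc_inv cyc_rot cyc_mem_alt)
open Cfsg.Agent.H110.Perms Cfsg.Agent.H110.Chain Cfsg.Agent.H110.Glue
open Cfsg.Agent.H111 Cfsg.Agent.H173.Pres Cfsg.Agent.H110.Track

/-- the alternating group of `Pt N` is generated by the `xx i` -/
theorem eq_top_of_xx {N : ℕ} (hN : 1 ≤ N) (H : Subgroup (alternatingGroup (Pt N)))
    (h : ∀ i (hi : i < N), xx i hi ∈ H) : H = ⊤ := by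
  refine Cfsg.Agent.StdAlt.Carm.eq_top_of_cyc (Ω := Pt N) (c := Sum.inr false) (d := Sum.inr true) (by simp)
    (by simp; omega) H ?_
  rintro σ (i | b) h1 h2 hσ
  · have : σ = xx i.1 i.2 := Subtype.ext hσ
    rw [this]; exact h _ _
  · cases b <;> simp at h1 h2

/-- a subgroup of the permutation group which contains `xx 0` and `CC N ε` contains all `xx i` -/
theorem xx_mem {N : ℕ} (ε : ℕ) (H : Subgroup (Perm (Pt N))) (h0 : ∀ h : 0 < N, (xx 0 h : Perm (Pt N)) ∈ H)
    (hc : CC N ε ∈ H) (i : ℕ) (hi : i < N) : (xx i hi : Perm (Pt N)) ∈ H := by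
  induction i with
  | zero => exact h0 _
  | succ i ih =>
    have h1 := mul_mem (mul_mem hc (ih (by omega))) (inv_mem hc)
    rw [CC_conj_xx i hi] at h1
    have h2 := zpow_mem h1 ((((-1) ^ ε : ℤˣ)) : ℤ)
    rwa [← zpow_mul, ← Units.val_mul, Int.units_mul_self, Units.val_one, zpow_one] at h2

theorem alternating_le {N : ℕ} (hN : 1 ≤ N) (ε : ℕ) (H : Subgroup (Perm (Pt N)))
    (h0 : ∀ h : 0 < N, (xx 0 h : Perm (Pt N)) ∈ H) (hc : CC N ε ∈ H) : alternatingGroup (Pt N) ≤ H := by
  have := eq_top_of_xx hN (H.comap (alternatingGroup (Pt N)).subtype) (fun i hi => xx_mem ε H h0 hc i hi)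
  intro σ hσ
  have h1 : (⟨σ, hσ⟩ : alternatingGroup (Pt N)) ∈ H.comap (alternatingGroup (Pt N)).subtype := by
    rw [this]; exact Subgroup.mem_top _
  exact h1

/-- the shifted element exists -/
theorem exists_shift {W N : ℕ} (hWN : W < N) (hW : 2 ≤ W) (ε : ℕ) (ρ : alternatingGroup (Pt (W - 1))) :
    ∃ σ' : alternatingGroup (Pt W), ext hWN.le σ' = CC N ε * ext hWN.le (extA (Nat.sub_le W 1) ρ) * (CC N ε)⁻¹ := by
  let H : Subgroup (alternatingGroup (Pt (W - 1))) :=
    (((ext hWN.le).comp (alternatingGroup (Pt W)).subtype).range).comap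
      ((MulAut.conj (CC N ε)).toMonoidHom.comp ((ext hWN.le).comp
        ((alternatingGroup (Pt W)).subtype.comp (extA (Nat.sub_le W 1)))))
  have : H = ⊤ := by
    apply eq_top_of_xx (by omega)
    intro i hi
    refine ⟨(xx (i + 1) (by omega) ^ ((((-1) ^ ε : ℤˣ)) : ℤ)), ?_⟩
    change ext hWN.le ((xx (i + 1) (by omega) ^ ((((-1) ^ ε : ℤˣ)) : ℤ) : alternatingGroup (Pt W)) : Perm (Pt W)) =
      CC N ε * ext hWN.le (extA (Nat.sub_le W 1) (xx i hi)) * (CC N ε)⁻¹
    rw [extA_xx, ← coe_extA, ← coe_extA, map_zpow, extA_xx, extA_xx, Subgroup.coe_zpow, CC_conj_xx i (by omega)]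
  have h1 : ρ ∈ H := by rw [this]; exact Subgroup.mem_top _
  obtain ⟨σ', hσ'⟩ := h1
  exact ⟨σ', hσ'⟩

/-- the shifted element -/
noncomputable def sh {W N : ℕ} (hWN : W < N) (hW : 2 ≤ W) (ε : ℕ) (ρ : alternatingGroup (Pt (W - 1))) :
    alternatingGroup (Pt W) := (exists_shift hWN hW ε ρ).choose

theorem sh_spec {W N : ℕ} (hWN : W < N) (hW : 2 ≤ W) (ε : ℕ) (ρ : alternatingGroup (Pt (W - 1))) :
    ext hWN.le (sh hWN hW ε ρ) = CC N ε * ext hWN.le (extA (Nat.sub_le W 1) ρ) * (CC N ε)⁻¹ :=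
  (exists_shift hWN hW ε ρ).choose_spec

theorem sh_unique {W N : ℕ} (hWN : W < N) (hW : 2 ≤ W) (ε : ℕ) (ρ : alternatingGroup (Pt (W - 1)))
    {σ' : alternatingGroup (Pt W)}
    (h : ext hWN.le σ' = CC N ε * ext hWN.le (extA (Nat.sub_le W 1) ρ) * (CC N ε)⁻¹) : σ' = sh hWN hW ε ρ := by
  rw [← sh_spec hWN hW] at h
  exact Subtype.ext (ext_injective _ h)

theorem sh_mul {W N : ℕ} (hWN : W < N) (hW : 2 ≤ W) (ε : ℕ) (ρ ρ' : alternatingGroup (Pt (W - 1))) :
    sh hWN hW ε (ρ * ρ') = sh hWN hW ε ρ * sh hWN hW ε ρ' := by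
  symm
  apply sh_unique
  rw [Subgroup.coe_mul, map_mul, sh_spec, sh_spec, map_mul, Subgroup.coe_mul, map_mul]
  group

theorem sh_one {W N : ℕ} (hWN : W < N) (hW : 2 ≤ W) (ε : ℕ) : sh hWN hW ε 1 = 1 := by
  symm
  apply sh_unique
  rw [map_one]
  simp

theorem sh_inv {W N : ℕ} (hWN : W < N) (hW : 2 ≤ W) (ε : ℕ) (ρ : alternatingGroup (Pt (W - 1))) :
    sh hWN hW ε ρ⁻¹ = (sh hWN hW ε ρ)⁻¹ := by
  apply eq_inv_of_mul_eq_one_left
  rw [← sh_mul, inv_mul_cancel, sh_one]

/-- it is enough to know the action on generators -/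
theorem acts_of {W N : ℕ} (hWN : W < N) (hW : 2 ≤ W) {J : Type*} [Group J] {φ : alternatingGroup (Pt W) →* J} {c : J}
    {ε : ℕ} {a b : alternatingGroup (Pt (W - 1))} (hab : Subgroup.closure {a, b} = ⊤)
    (ha : c * φ (extA (Nat.sub_le W 1) a) * c⁻¹ = φ (sh hWN hW ε a))
    (hb : c * φ (extA (Nat.sub_le W 1) b) * c⁻¹ = φ (sh hWN hW ε b)) : Acts hWN φ c ε := by
  intro ρ σ' hσ'
  rw [sh_unique hWN hW ε ρ hσ']
  clear hσ' σ'
  have hρ : ρ ∈ Subgroup.closure {a, b} := by rw [hab]; exact Subgroup.mem_top _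
  induction hρ using Subgroup.closure_induction with
  | mem x hx =>
    rcases hx with rfl | hx
    · exact ha
    · rw [Set.mem_singleton_iff] at hx; subst hx; exact hb
  | one => rw [map_one, map_one, sh_one, map_one]; group
  | mul x y hx hy h1 h2 =>
    rw [map_mul, map_mul, sh_mul, map_mul, ← h1, ← h2]; group
  | inv x hx h1 =>
    rw [map_inv, map_inv, sh_inv, map_inv, ← h1]; group

theorem coprod_range {A : Type*} [Group A] {J : Type*} [Group J] (φ : Monoid.Coprod A (FreeGroup (Fin 1)) →* J)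
    (hφ : Function.Surjective φ) :
    (φ.comp Monoid.Coprod.inl).range ⊔ Subgroup.zpowers (φ (Monoid.Coprod.inr (FreeGroup.of 0))) = ⊤ := by
  rw [eq_top_iff]
  rintro g -
  obtain ⟨x, rfl⟩ := hφ g
  induction x using Monoid.Coprod.induction_on with
  | inl a => exact Subgroup.mem_sup_left ⟨a, rfl⟩
  | inr y =>
    apply Subgroup.mem_sup_right
    induction y using FreeGroup.induction_on with
    | C1 => simp
    | of i =>
      have : i = 0 := Subsingleton.elim _ _
      subst this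
      exact Subgroup.mem_zpowers _
    | inv_of i h => rw [map_inv, map_inv]; exact inv_mem h
    | mul y z hy hz => rw [map_mul, map_mul]; exact mul_mem hy hz
  | mul x y hx hy => rw [map_mul]; exact mul_mem hx hy

theorem commute_kap_swap {N : ℕ} {i j : ℕ} (h : i < N) (h' : j < N) :
    Commute (kap N) (swap (pt i h) (pt j h')) :=
  commute_kap fun b => swap_apply_of_ne_of_ne (by simp [pt]) (by simp [pt])

theorem kap_pow_even {N k : ℕ} (h : Even k) : kap N ^ k = 1 := by
  obtain ⟨r, rfl⟩ := h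
  rw [← two_mul, pow_mul, pow_two, kap_sq, one_pow]

theorem CC_pow (N ε : ℕ) : CC N ε ^ N = kap N ^ (ε * N) := by
  unfold CC
  have h : Commute (rot N) (kap N ^ ε) := ((commute_kap rot_inr).pow_left ε).symm
  rw [h.mul_pow, rot_pow, one_mul, pow_mul]

/-- the relation for the alternating group -/
theorem rel_alt {N : ℕ} (hN : 1 < N) :
    ((ss 0 (by omega) : alternatingGroup (Pt N)) * CC N (N - 1)) ^ (N - 1) = CC N (N - 1) ^ N := by
  obtain ⟨ρ, h1, h2, h3⟩ := rot_eq2 hN
  rw [CC_pow, coe_ss]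
  have h4 : swap (pt 0 (by omega)) (pt (0 + 1) (by omega)) * kap N * CC N (N - 1) = ρ * kap N ^ N := by
    unfold CC
    rw [h1]
    have h5 := (commute_kap_swap (N := N) (i := 0) (j := 1) (by omega) (by omega)).eq
    calc swap (pt 0 (by omega)) (pt 1 (by omega)) * kap N * (swap (pt 0 (by omega)) (pt 1 (by omega)) * ρ *
          kap N ^ (N - 1))
        = swap (pt 0 (by omega)) (pt 1 (by omega)) * (kap N * swap (pt 0 (by omega)) (pt 1 (by omega))) * ρ *
          kap N ^ (N - 1) := by group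
      _ = swap (pt 0 (by omega)) (pt 1 (by omega)) * swap (pt 0 (by omega)) (pt 1 (by omega)) * (kap N * ρ) *
          kap N ^ (N - 1) := by rw [h5]; group
      _ = ρ * (kap N * kap N ^ (N - 1)) := by rw [swap_mul_self, one_mul, h3.eq]; group
      _ = ρ * kap N ^ N := by rw [← pow_succ', Nat.sub_add_cancel (by omega)]
  rw [h4]
  have h6 : Commute ρ (kap N ^ N) := (h3.pow_left N).symm
  rw [h6.mul_pow, h2, one_mul, ← pow_mul, mul_comm (N - 1) N]

/-- the relation for the symmetric group -/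
theorem rel_sym {N : ℕ} (hN : 2 < N) :
    (((tt 0 (by omega) : alternatingGroup (Pt N)) : Perm (Pt N))⁻¹ * CC N N) ^ (N - 2) = CC N N ^ N := by
  obtain ⟨ρ, h1, h2, h3⟩ := rot_eq3 hN
  rw [CC_pow]
  have h4 : ((tt 0 (by omega) : alternatingGroup (Pt N)) : Perm (Pt N))⁻¹ * CC N N = ρ * kap N ^ N := by
    unfold CC
    rw [h1]
    unfold tt
    group
  rw [h4]
  have h6 : Commute ρ (kap N ^ N) := (h3.pow_left N).symm
  rw [h6.mul_pow, h2, one_mul, ← pow_mul]
  obtain ⟨M, rfl⟩ : ∃ M, N = M + 2 := ⟨N - 2, by omega⟩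
  have : (M + 2) * (M + 2) = (M + 2) * (M + 2 - 2) + 2 * (M + 2) := by
    rw [Nat.add_sub_cancel]; ring
  rw [this, pow_add, kap_pow_even (k := 2 * (M + 2)) (even_two_mul _), mul_one]

theorem sign_CC {N : ℕ} (h : 0 < N) (ε : ℕ) : sign (CC N ε) = (-1) ^ (N - 1 + ε) := by
  unfold CC
  rw [map_mul, map_pow, sign_rot h, sign_kap, pow_add]

theorem CC_mem {N : ℕ} (h : 0 < N) : CC N (N - 1) ∈ alternatingGroup (Pt N) := by
  rw [mem_alternatingGroup, sign_CC h, ← two_mul, pow_mul]
  simp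

theorem sign_CC_sym {N : ℕ} (h : 0 < N) : sign (CC N N) = -1 := by
  rw [sign_CC h]
  obtain ⟨M, rfl⟩ : ∃ M, N = M + 1 := ⟨N - 1, by omega⟩
  rw [Nat.add_sub_cancel, show M + (M + 1) = 2 * M + 1 by ring, pow_succ, pow_mul]
  simp

section main

variable {W N k m : ℕ} {ι : Type*}

/-- the added generator, alternating groups -/
def CA (h : W < N) : alternatingGroup (Pt N) := ⟨CC N (N - 1), CC_mem (by omega)⟩

/-- **Gluing, alternating groups**, on given generators. -/
theorem alt_on {g : ι → alternatingGroup (Pt W)} (hWN : W < N) (hN : N + 3 ≤ 2 * W) (h : PresOn g m)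
    (hg : ∃ a b : alternatingGroup (Pt (W - 1)), Subgroup.closure {a, b} = ⊤) :
    PresOn (Sum.elim (fun j => extA hWN.le (g j)) fun _ : Fin 1 => CA hWN) (m + 3) := by
  obtain ⟨a, b, hab⟩ := hg
  have hW : 2 ≤ W := by omega
  let f : Monoid.Coprod (alternatingGroup (Pt W)) (FreeGroup (Fin 1)) →* alternatingGroup (Pt N) :=
    Monoid.Coprod.lift (extA hWN.le) (FreeGroup.lift fun _ => CA hWN)
  let cc : Monoid.Coprod (alternatingGroup (Pt W)) (FreeGroup (Fin 1)) := Monoid.Coprod.inr (FreeGroup.of 0)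
  have hcc : f cc = CA hWN := by simp [f, cc]
  have hfl : ∀ σ, f (Monoid.Coprod.inl σ) = extA hWN.le σ := fun σ => by simp [f]
  let R : List (Monoid.Coprod (alternatingGroup (Pt W)) (FreeGroup (Fin 1))) :=
    [cc * Monoid.Coprod.inl (extA (Nat.sub_le W 1) a) * cc⁻¹ * (Monoid.Coprod.inl (sh hWN hW (N - 1) a))⁻¹,
     cc * Monoid.Coprod.inl (extA (Nat.sub_le W 1) b) * cc⁻¹ * (Monoid.Coprod.inl (sh hWN hW (N - 1) b))⁻¹,
     (Monoid.Coprod.inl (ss 0 (by omega)) * cc) ^ (N - 1) * (cc ^ N)⁻¹]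
  have hf : Function.Surjective f := by
    rw [← MonoidHom.range_eq_top]
    apply eq_top_of_xx (by omega)
    intro i hi
    have hle := alternating_le (N := N) (by omega) (N - 1) (f.range.map (alternatingGroup (Pt N)).subtype)
      (fun h0 => ⟨_, ⟨Monoid.Coprod.inl (xx 0 (by omega)), rfl⟩, by rw [hfl, extA_xx]; rfl⟩)
      ⟨_, ⟨cc, rfl⟩, by rw [hcc]; rfl⟩
    obtain ⟨y, hy, hy'⟩ := hle (xx i hi).2
    have : y = xx i hi := Subtype.ext hy'
    rwa [this] at hy
  have hk : f.ker = Subgroup.normalClosure {r | r ∈ R} := by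
    refine ker_of_inj f R ?_ ?_
    · intro r hr
      simp only [R, List.mem_cons, List.not_mem_nil, or_false] at hr
      rcases hr with rfl | rfl | rfl
      · rw [map_mul, map_mul, map_mul, map_inv, map_inv, hcc, hfl, hfl, mul_inv_eq_one]
        apply Subtype.ext
        exact (sh_spec hWN hW (N - 1) a).symm
      · rw [map_mul, map_mul, map_mul, map_inv, map_inv, hcc, hfl, hfl, mul_inv_eq_one]
        apply Subtype.ext
        exact (sh_spec hWN hW (N - 1) b).symm
      · rw [map_mul, map_pow, map_mul, map_inv, map_pow, hcc, hfl, mul_inv_eq_one, extA_ss]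
        apply Subtype.ext
        exact rel_alt (by omega)
    · intro φ θ hφ hθ hR
      have e1 := hR _ (List.mem_cons_self)
      have e2 := hR _ (List.mem_cons_of_mem _ (List.mem_cons_self))
      have e3 := hR _ (List.mem_cons_of_mem _ (List.mem_cons_of_mem _ (List.mem_cons_self)))
      rw [map_mul, map_mul, map_mul, map_inv, map_inv, mul_inv_eq_one] at e1 e2
      rw [map_mul, map_pow, map_mul, map_inv, map_pow, mul_inv_eq_one] at e3
      obtain ⟨Φ, hΦ⟩ := alt_surj (φ := φ.comp Monoid.Coprod.inl) (c := φ cc) (ε := N - 1) hWN hN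
        (acts_of hWN hW hab e1 e2) e3 (coprod_range φ hφ)
      have hs : Function.Surjective (θ.comp Φ) := by
        have : Function.Surjective θ := by
          intro y
          obtain ⟨x, hx⟩ := hf y
          exact ⟨φ x, by rw [hθ, hx]⟩
        exact this.comp hΦ
      have hi : Function.Injective (θ.comp Φ) := Finite.injective_iff_surjective.2 hs
      intro x y hxy
      obtain ⟨x', rfl⟩ := hΦ x
      obtain ⟨y', rfl⟩ := hΦ y
      rw [hi hxy]
  have h1 := presOn_add_one h f hf R hk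
  have e : (Sum.elim (fun j => extA hWN.le (g j)) fun _ : Fin 1 => CA hWN) =
      (Sum.elim (fun i => f (Monoid.Coprod.inl (g i))) fun _ : Fin 1 => f (Monoid.Coprod.inr (FreeGroup.of 0))) := by
    ext1 j
    rcases j with j | j
    · exact (hfl _).symm
    · exact hcc.symm
  rw [e]
  exact h1

/-- **Gluing, symmetric groups**, on given generators. -/
theorem sym_on {g : ι → alternatingGroup (Pt W)} (hWN : W < N) (hN : N + 3 ≤ 2 * W) (h : PresOn g m)
    (hg : ∃ a b : alternatingGroup (Pt (W - 1)), Subgroup.closure {a, b} = ⊤) :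
    PresOn (Sum.elim (fun j => (extA hWN.le (g j) : Perm (Pt N))) fun _ : Fin 1 => CC N N) (m + 3) := by
  obtain ⟨a, b, hab⟩ := hg
  have hW : 2 ≤ W := by omega
  let C : Perm (Pt N) := CC N N
  let f : Monoid.Coprod (alternatingGroup (Pt W)) (FreeGroup (Fin 1)) →* Perm (Pt N) :=
    Monoid.Coprod.lift ((alternatingGroup (Pt N)).subtype.comp (extA hWN.le)) (FreeGroup.lift fun _ => C)
  let cc : Monoid.Coprod (alternatingGroup (Pt W)) (FreeGroup (Fin 1)) := Monoid.Coprod.inr (FreeGroup.of 0)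
  have hcc : f cc = C := by simp [f, cc]
  have hfl : ∀ σ, f (Monoid.Coprod.inl σ) = (extA hWN.le σ : Perm (Pt N)) := fun σ => by simp [f]
  let R : List (Monoid.Coprod (alternatingGroup (Pt W)) (FreeGroup (Fin 1))) :=
    [cc * Monoid.Coprod.inl (extA (Nat.sub_le W 1) a) * cc⁻¹ * (Monoid.Coprod.inl (sh hWN hW N a))⁻¹,
     cc * Monoid.Coprod.inl (extA (Nat.sub_le W 1) b) * cc⁻¹ * (Monoid.Coprod.inl (sh hWN hW N b))⁻¹,
     ((Monoid.Coprod.inl (tt 0 (by omega)))⁻¹ * cc) ^ (N - 2) * (cc ^ N)⁻¹]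
  have hf : Function.Surjective f := by
    have hle := alternating_le (N := N) (by omega) N f.range
      (fun h0 => ⟨Monoid.Coprod.inl (xx 0 (by omega)), by rw [hfl, extA_xx]⟩)
      ⟨cc, hcc⟩
    rw [← MonoidHom.range_eq_top, eq_top_iff]
    intro σ _
    rcases Int.units_eq_one_or (sign σ) with h1 | h1
    · exact hle (mem_alternatingGroup.2 h1)
    · have h2 : σ * C⁻¹ ∈ f.range := by
        apply hle
        rw [mem_alternatingGroup, map_mul, map_inv, h1, sign_CC_sym (by omega)]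
        simp
      have h3 := mul_mem h2 (⟨cc, hcc⟩ : C ∈ f.range)
      rwa [inv_mul_cancel_right] at h3
  have hk : f.ker = Subgroup.normalClosure {r | r ∈ R} := by
    refine ker_of_inj f R ?_ ?_
    · intro r hr
      simp only [R, List.mem_cons, List.not_mem_nil, or_false] at hr
      rcases hr with rfl | rfl | rfl
      · rw [map_mul, map_mul, map_mul, map_inv, map_inv, hcc, hfl, hfl, mul_inv_eq_one]
        exact (sh_spec hWN hW N a).symm
      · rw [map_mul, map_mul, map_mul, map_inv, map_inv, hcc, hfl, hfl, mul_inv_eq_one]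
        exact (sh_spec hWN hW N b).symm
      · rw [map_mul, map_pow, map_mul, map_inv, map_inv, map_pow, hcc, hfl, mul_inv_eq_one, extA_tt]
        exact rel_sym (by omega)
    · intro φ θ hφ hθ hR
      have e1 := hR _ (List.mem_cons_self)
      have e2 := hR _ (List.mem_cons_of_mem _ (List.mem_cons_self))
      have e3 := hR _ (List.mem_cons_of_mem _ (List.mem_cons_of_mem _ (List.mem_cons_self)))
      rw [map_mul, map_mul, map_mul, map_inv, map_inv, mul_inv_eq_one] at e1 e2
      rw [map_mul, map_pow, map_mul, map_inv, map_inv, map_pow, mul_inv_eq_one] at e3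
      obtain ⟨hfin, hcard⟩ := sym_card (φ := φ.comp Monoid.Coprod.inl) (c := φ cc) (ε := N) hWN hN
        (acts_of hWN hW hab e1 e2) e3 (coprod_range φ hφ)
      have hs : Function.Surjective θ := by
        intro y
        obtain ⟨x, hx⟩ := hf y
        exact ⟨φ x, by rw [hθ, hx]⟩
      have : Nontrivial (Pt N) := ⟨⟨Sum.inr false, Sum.inr true, by simp⟩⟩
      have hA : 2 * Nat.card (alternatingGroup (Pt N)) = Nat.card (Perm (Pt N)) := two_mul_nat_card_alternatingGroup
      rw [hA] at hcard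
      have hbij := hs.bijective_of_nat_card_le (by exact hcard)
      exact hbij.injective
  have h1 := presOn_add_one h f hf R hk
  have e : (Sum.elim (fun j => (extA hWN.le (g j) : Perm (Pt N))) fun _ : Fin 1 => CC N N) =
      (Sum.elim (fun i => f (Monoid.Coprod.inl (g i))) fun _ : Fin 1 => f (Monoid.Coprod.inr (FreeGroup.of 0))) := by
    ext1 j
    rcases j with j | j
    · exact (hfl _).symm
    · exact hcc.symm
  rw [e]
  exact h1

/-- from a tracked presentation on `Fin k ⊕ Fin 1` -/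
theorem hasPres_succ_of_presOn {G : Type*} [Group G] {g : Fin k ⊕ Fin 1 → G} (h : PresOn g m) : HasPres G (k + 1) m :=
  (h.reindex (finSumFinEquiv (m := k) (n := 1)).symm).hasPres

/-- **Gluing, alternating groups.** -/
theorem alt (hWN : W < N) (hN : N + 3 ≤ 2 * W) (h : HasPres (alternatingGroup (Pt W)) k m)
    (hg : ∃ a b : alternatingGroup (Pt (W - 1)), Subgroup.closure {a, b} = ⊤) :
    HasPres (alternatingGroup (Pt N)) (k + 1) (m + 3) := by
  obtain ⟨g, h⟩ := exists_presOn h
  exact hasPres_succ_of_presOn (alt_on hWN hN h hg)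

/-- **Gluing, symmetric groups.** -/
theorem sym (hWN : W < N) (hN : N + 3 ≤ 2 * W) (h : HasPres (alternatingGroup (Pt W)) k m)
    (hg : ∃ a b : alternatingGroup (Pt (W - 1)), Subgroup.closure {a, b} = ⊤) :
    HasPres (Perm (Pt N)) (k + 1) (m + 3) := by
  obtain ⟨g, h⟩ := exists_presOn h
  exact hasPres_succ_of_presOn (sym_on hWN hN h hg)

end main

end Cfsg.Agent.H110.GluePres
end

-- part: H110/PrimeAbs
section
/-!
# Four relators for the alternating group of degree `p + 2`: the abstract argument (helper110, helper173)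

`T, Z` generate `Γ`, `W` is in the normal closure of `Z`, `W T^s W⁻¹ = T^(s-1)`, `T^p = W^(p-1)`, `W Z W⁻¹ = Z²`,
`Z³ = (Z Z^T)²`. Then the conjugates `T^i Z T^(-i)` satisfy Carmichael's relations and generate `Γ`.
-/

set_option autoImplicit false

namespace Cfsg.Agent.H110.PrimeAbs

open Equiv Equiv.Perm
open Cfsg.Agent.StdAlt.PermTypes (cyc)
open Cfsg.Agent.H110.Chain (sq_swap sq_e sq_conj commute_conj)

variable {p : ℕ} [hp : Fact p.Prime]

/-- The relations. -/
structure Rel {Γ : Type*} [Group Γ] (r : (ZMod p)ˣ) (s : ℕ) (T Z W : Γ) : Prop where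
  one : W * T ^ s * W⁻¹ = T ^ (s - 1)
  two : T ^ p = W ^ (p - 1)
  three : W * Z * W⁻¹ = Z ^ 2
  four : Z ^ 3 = (Z * (T * Z * T⁻¹)) ^ 2
  mem : W ∈ Subgroup.normalClosure {Z}
  top : Subgroup.closure {T, Z} = ⊤
  s_pos : 1 ≤ s
  hs : (s : ZMod p) * (1 - r) = 1
  gen : ∀ x : (ZMod p)ˣ, x ∈ Subgroup.zpowers r

/-- the conjugates of `Z` -/
def z {Γ : Type*} [Group Γ] (T Z : Γ) (i : ZMod p) : Γ := T ^ i.val * Z * (T ^ i.val)⁻¹

theorem pow_two_pow {Γ : Type*} [Group Γ] {g : Γ} (hg : g ^ 3 = 1) (k : ℕ) :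
    g ^ (2 ^ k) = g ^ ((((-1) ^ k : ℤˣ)) : ℤ) := by
  induction k with
  | zero => simp
  | succ k ih =>
    have h1 : (g ^ (2 ^ k)) ^ 2 = (g ^ (2 ^ k))⁻¹ := by
      rw [eq_inv_iff_mul_eq_one, ← pow_succ, ← pow_mul, mul_comm, pow_mul, hg, one_pow]
    rw [pow_succ, pow_mul, h1, ih, pow_succ, ← zpow_neg]
    simp

namespace Rel

variable {Γ : Type*} [Group Γ] {r : (ZMod p)ˣ} {s : ℕ} {T Z W : Γ} (h : Rel r s T Z W)

include h

theorem T_pow : T ^ p = 1 := by
  have h1 : (W * T ^ s * W⁻¹) ^ p = (T ^ (s - 1)) ^ p := by rw [h.one]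
  have h2 : (W * T ^ s * W⁻¹) ^ p = (T ^ p) ^ s := by
    rw [conj_pow, ← pow_mul, mul_comm s p, pow_mul, h.two]
    have : Commute W ((W ^ (p - 1)) ^ s) := ((Commute.refl W).pow_right _).pow_right _
    rw [this.eq, mul_inv_cancel_right]
  rw [h2, ← pow_mul T (s - 1) p, mul_comm (s - 1) p, pow_mul] at h1
  have h3 : (T ^ p) ^ s = (T ^ p) ^ (s - 1) * T ^ p := by
    rw [← pow_succ, Nat.sub_add_cancel h.s_pos]
  rw [h3] at h1
  exact mul_eq_left.1 h1

theorem T_congr {a b : ℕ} (hab : (a : ZMod p) = b) : T ^ a = T ^ b := by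
  rw [ZMod.natCast_eq_natCast_iff] at hab
  rw [pow_eq_pow_iff_modEq]
  exact hab.of_dvd (orderOf_dvd_of_pow_eq_one h.T_pow)

theorem W_pow : W ^ (p - 1) = 1 := by rw [← h.two, h.T_pow]

theorem W_T : W * T * W⁻¹ = T ^ (r : ZMod p).val := by
  have h1 : T = (T ^ s) ^ (1 - (r : ZMod p)).val := by
    rw [← pow_mul]
    conv_lhs => rw [← pow_one T]
    apply h.T_congr
    rw [Nat.cast_mul, ZMod.natCast_val, ZMod.cast_id', id, h.hs, Nat.cast_one]
  have h2 : W * T * W⁻¹ = (W * T ^ s * W⁻¹) ^ (1 - (r : ZMod p)).val := by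
    rw [conj_pow, ← h1]
  rw [h2, h.one, ← pow_mul]
  apply h.T_congr
  rw [Nat.cast_mul, ZMod.natCast_val, ZMod.cast_id', id, Nat.cast_sub h.s_pos, Nat.cast_one, sub_mul, h.hs,
    ZMod.natCast_val, ZMod.cast_id', id]
  ring

theorem W_pow_T (k : ℕ) : W ^ k * T * (W ^ k)⁻¹ = T ^ ((r : ZMod p) ^ k).val := by
  induction k with
  | zero =>
    rw [pow_zero, one_mul, inv_one, mul_one, pow_zero]
    conv_lhs => rw [← pow_one T]
    apply h.T_congr
    simp
  | succ k ih =>
    have h1 : W ^ (k + 1) * T * (W ^ (k + 1))⁻¹ = W ^ k * (W * T * W⁻¹) * (W ^ k)⁻¹ := by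
      rw [pow_succ, mul_inv_rev]; group
    rw [h1, h.W_T, ← conj_pow, ih, ← pow_mul]
    apply h.T_congr
    rw [Nat.cast_mul, ZMod.natCast_val, ZMod.natCast_val, ZMod.natCast_val, ZMod.cast_id', id, id, id, pow_succ]

theorem W_pow_Z (k : ℕ) : W ^ k * Z * (W ^ k)⁻¹ = Z ^ (2 ^ k) := by
  induction k with
  | zero => simp
  | succ k ih =>
    have h1 : W ^ (k + 1) * Z * (W ^ (k + 1))⁻¹ = W ^ k * (W * Z * W⁻¹) * (W ^ k)⁻¹ := by
      rw [pow_succ, mul_inv_rev]; group
    rw [h1, h.three, ← conj_pow, ih, ← pow_mul, pow_succ]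

theorem Z_odd : Z ^ (2 ^ (p - 1) - 1) = 1 := by
  have h1 := h.W_pow_Z (p - 1)
  rw [h.W_pow, one_mul, inv_one, mul_one] at h1
  have h2 : Z ^ (2 ^ (p - 1)) = Z ^ (2 ^ (p - 1) - 1) * Z := by
    rw [← pow_succ, Nat.sub_add_cancel Nat.one_le_two_pow]
  rw [h2] at h1
  exact right_eq_mul.1 h1

omit h in
/-- a root of the `2 ^ k`-th power -/
theorem exists_root (k : ℕ) : ∃ j : ℕ, ∀ g : Γ, g ^ (2 ^ (p - 1) - 1) = 1 → (g ^ (2 ^ k)) ^ j = g := by
  have hp2 : 2 ≤ p := hp.out.two_le
  have hodd : Nat.Coprime (2 ^ k) (2 ^ (p - 1) - 1) := by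
    apply Nat.Coprime.pow_left
    rw [Nat.coprime_two_left]
    apply Nat.Even.sub_odd Nat.one_le_two_pow
    · exact (Nat.even_pow.2 ⟨even_two, by omega⟩)
    · exact odd_one
  by_cases h1 : 2 ^ (p - 1) - 1 = 1
  · refine ⟨1, fun g hg => ?_⟩
    rw [h1, pow_one] at hg
    rw [hg]; simp
  · obtain ⟨j, hj⟩ := Nat.exists_mul_mod_eq_one_of_coprime hodd (by
      have : 2 ^ 1 ≤ 2 ^ (p - 1) := Nat.pow_le_pow_right (by norm_num) (by omega)
      omega)
    refine ⟨j, fun g hg => ?_⟩
    rw [← pow_mul]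
    conv_rhs => rw [← pow_one g]
    rw [pow_eq_pow_iff_modEq]
    have : 2 ^ k * j ≡ 1 [MOD (2 ^ (p - 1) - 1)] := by
      rw [Nat.ModEq, hj.2]
      exact (Nat.mod_eq_of_lt (by
        have : 2 ^ 1 ≤ 2 ^ (p - 1) := Nat.pow_le_pow_right (by norm_num) (by omega)
        omega)).symm
    exact this.of_dvd (orderOf_dvd_of_pow_eq_one hg)

omit h in
theorem z_zero : z (p := p) T Z 0 = Z := by simp [z]

theorem z_add (i j : ZMod p) : T ^ i.val * z T Z j * (T ^ i.val)⁻¹ = z T Z (i + j) := by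
  unfold z
  have h1 : T ^ (i + j).val = T ^ i.val * T ^ j.val := by
    rw [← pow_add]
    apply h.T_congr
    rw [Nat.cast_add, ZMod.natCast_val, ZMod.natCast_val, ZMod.natCast_val, ZMod.cast_id', id, id, id]
  rw [h1, mul_inv_rev]; group

theorem W_z (k : ℕ) : W ^ k * (T * Z * T⁻¹) * (W ^ k)⁻¹ = z T Z ((r : ZMod p) ^ k) ^ (2 ^ k) := by
  unfold z
  rw [conj_pow, ← h.W_pow_Z k, ← h.W_pow_T k]
  group

theorem z_odd (i : ZMod p) : z T Z i ^ (2 ^ (p - 1) - 1) = 1 := by
  unfold z
  rw [conj_pow, h.Z_odd]; group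

theorem exists_pow {x : ZMod p} (hx : x ≠ 0) : ∃ k : ℕ, (r : ZMod p) ^ k = x := by
  obtain ⟨k, hk⟩ := (mem_powers_iff_mem_zpowers).2 (h.gen (Units.mk0 x hx))
  refine ⟨k, ?_⟩
  have := congrArg Units.val hk
  simpa using this

theorem comm_one : Commute (Z ^ 3) (T * Z * T⁻¹) := by
  have h1 : Commute (Z ^ 3) Z := (Commute.refl Z).pow_left 3
  have h2 : Commute (Z ^ 3) (Z * (T * Z * T⁻¹)) := by
    rw [h.four]; exact (Commute.refl _).pow_left 2
  have := h1.inv_right.mul_right h2
  rwa [inv_mul_cancel_left] at this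

theorem comm_all (x : ZMod p) : Commute (Z ^ 3) (z T Z x) := by
  by_cases hx : x = 0
  · subst hx
    rw [z_zero]
    exact (Commute.refl Z).pow_left 3
  · obtain ⟨k, rfl⟩ := h.exists_pow hx
    have h1 := commute_conj (W ^ k) h.comm_one
    rw [h.W_z, ← conj_pow, h.W_pow_Z, ← pow_mul, mul_comm, pow_mul] at h1
    obtain ⟨j, hj⟩ := exists_root (p := p) (Γ := Γ) k
    have h2 := (h1.pow_left j).pow_right j
    rw [hj _ (by rw [← pow_mul, mul_comm, pow_mul, h.Z_odd, one_pow]), hj _ (h.z_odd _)] at h2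
    exact h2

theorem closure_eq : Subgroup.closure (Set.range (z (p := p) T Z)) = ⊤ := by
  set N := Subgroup.closure (Set.range (z (p := p) T Z)) with hN
  have hZ : Z ∈ N := Subgroup.subset_closure ⟨0, z_zero⟩
  have hTn : T ∈ Subgroup.normalizer N := by
    rw [Subgroup.mem_normalizer_iff]
    have hstep : ∀ i : ZMod p, T * z T Z i * T⁻¹ = z T Z (1 + i) := by
      intro i
      rw [← h.z_add]
      have : T ^ (1 : ZMod p).val = T := by
        conv_rhs => rw [← pow_one T]
        apply h.T_congr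
        simp
      rw [this]
    have h1 : N.map (MulAut.conj T).toMonoidHom = N := by
      rw [hN, MonoidHom.map_closure]
      congr 1
      ext g
      constructor
      · rintro ⟨_, ⟨i, rfl⟩, rfl⟩
        exact ⟨1 + i, (hstep i).symm⟩
      · rintro ⟨i, rfl⟩
        refine ⟨z T Z (i - 1), ⟨i - 1, rfl⟩, ?_⟩
        have := hstep (i - 1)
        rw [add_sub_cancel] at this
        exact this
    intro g
    constructor
    · intro hg
      have : T * g * T⁻¹ ∈ N.map (MulAut.conj T).toMonoidHom := ⟨g, hg, rfl⟩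
      rwa [h1] at this
    · intro hg
      rw [← h1] at hg
      obtain ⟨g', hg', e⟩ := hg
      have : g' = g := (MulAut.conj T).injective e
      rwa [← this]
  have hnt : Subgroup.normalizer (N : Set Γ) = ⊤ := by
    rw [eq_top_iff, ← h.top, Subgroup.closure_le]
    rintro g (rfl | hg)
    · exact hTn
    · rw [Set.mem_singleton_iff] at hg
      subst hg
      exact Subgroup.le_normalizer hZ
  have hnorm : N.Normal := Subgroup.normalizer_eq_top_iff.1 hnt
  have hW : W ∈ N := by
    have : Subgroup.normalClosure {Z} ≤ N :=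
      Subgroup.normalClosure_le_normal (Set.singleton_subset_iff.2 hZ)
    exact this h.mem
  have hT : T ∈ N := by
    have h1 : T ^ ((r : ZMod p)).val * T⁻¹ ∈ N := by
      rw [← h.W_T]
      have h2 := hnorm.conj_mem W⁻¹ (inv_mem hW) T
      have h3 : W * T * W⁻¹ * T⁻¹ = W * (T * W⁻¹ * T⁻¹) := by group
      rw [h3]
      exact mul_mem hW h2
    have h4 : T = (T ^ ((r : ZMod p)).val * T⁻¹) ^ ((r : ZMod p) - 1)⁻¹.val := by
      have h5 : T⁻¹ = T ^ ((-1 : ZMod p)).val := by
        rw [inv_eq_iff_mul_eq_one, ← pow_succ']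
        have : T ^ ((-1 : ZMod p).val + 1) = T ^ 0 := by
          apply h.T_congr
          rw [Nat.cast_add, ZMod.natCast_val, ZMod.cast_id', id]; simp
        rw [this, pow_zero]
      rw [h5, ← pow_add, ← pow_mul]
      conv_lhs => rw [← pow_one T]
      apply h.T_congr
      rw [Nat.cast_mul, Nat.cast_add, ZMod.natCast_val, ZMod.natCast_val, ZMod.natCast_val, ZMod.cast_id', id, id, id,
        Nat.cast_one]
      have h6 : (r : ZMod p) - 1 ≠ 0 := by
        intro h7
        have h8 := h.hs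
        rw [← neg_sub, h7] at h8
        simp at h8
      rw [← sub_eq_add_neg, mul_inv_cancel₀ h6]
    rw [h4]
    exact pow_mem h1 _
  rw [eq_top_iff, ← h.top, Subgroup.closure_le]
  rintro g (rfl | hg)
  · exact hT
  · rw [Set.mem_singleton_iff] at hg
    subst hg
    exact hZ

theorem Z_cube : Z ^ 3 = 1 := by
  have h1 : ∀ g : Γ, Commute (Z ^ 3) g := by
    intro g
    have hg : g ∈ Subgroup.closure (Set.range (z (p := p) T Z)) := by
      rw [h.closure_eq]; exact Subgroup.mem_top _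
    induction hg using Subgroup.closure_induction with
    | mem x hx => obtain ⟨i, rfl⟩ := hx; exact h.comm_all i
    | one => exact Commute.one_right _
    | mul x y _ _ hx hy => exact hx.mul_right hy
    | inv x _ hx => exact hx.inv_right
  have h2 : W * Z ^ 3 * W⁻¹ = (Z ^ 3) ^ 2 := by
    rw [← conj_pow, h.three, ← pow_mul, ← pow_mul]
  rw [← (h1 W).eq, mul_inv_cancel_right] at h2
  rw [pow_two] at h2
  exact left_eq_mul.1 h2

theorem pair_zero {x : ZMod p} (hx : x ≠ 0) : (Z * z T Z x) ^ 2 = 1 := by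
  obtain ⟨k, rfl⟩ := h.exists_pow hx
  have h1 : (Z * (T * Z * T⁻¹)) ^ 2 = 1 := by rw [← h.four, h.Z_cube]
  have h2 := sq_conj (W ^ k) Z (T * Z * T⁻¹)
  rw [h1, h.W_z, h.W_pow_Z, mul_one, mul_inv_cancel] at h2
  have h4 : z T Z ((r : ZMod p) ^ k) ^ 3 = 1 := by
    unfold z
    rw [conj_pow, h.Z_cube]; group
  rw [pow_two_pow h.Z_cube, pow_two_pow h4] at h2
  exact sq_e _ h2

theorem pair {i j : ZMod p} (hij : i ≠ j) : (z T Z i * z T Z j) ^ 2 = 1 := by
  have h1 := h.pair_zero (sub_ne_zero.2 hij.symm)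
  have h2 := sq_conj (T ^ i.val) (z T Z (0 : ZMod p)) (z T Z (j - i))
  rw [h.z_add, h.z_add, add_zero, add_sub_cancel, z_zero (p := p), h1] at h2
  rw [h2]; group

theorem cube (i : ZMod p) : z T Z i ^ 3 = 1 := by
  unfold z
  rw [conj_pow, h.Z_cube]; group

/-- **The homomorphism from the alternating group.** -/
theorem exists_hom : ∃ f : alternatingGroup (ZMod p ⊕ Bool) →* Γ, Function.Surjective f := by
  classical
  obtain ⟨f, hf⟩ := Cfsg.Agent.StdAlt.Carm.exists_hom (G := Γ) (Ω := ZMod p ⊕ Bool)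
    (c := Sum.inr false) (d := Sum.inr true) (by simp) (by
      have := hp.out.two_le
      simp only [Fintype.card_sum, ZMod.card, Fintype.card_bool]
      omega)
    (y := Sum.elim (fun i : ZMod p => z T Z i) (fun _ => 1))
    (by
      rintro (i | b) h1 h2
      · exact h.cube _
      · simp)
    (by
      rintro (i | b) (j | b') h1 h2 h3 h4 h5
      · exact h.pair (fun h => h5 (by rw [h]))
      · cases b' <;> simp at h3 h4
      · cases b <;> simp at h1 h2
      · cases b <;> simp at h1 h2)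
  refine ⟨f, ?_⟩
  rw [← MonoidHom.range_eq_top, eq_top_iff, ← h.closure_eq, Subgroup.closure_le]
  rintro _ ⟨i, rfl⟩
  exact ⟨⟨cyc (Sum.inl i) (Sum.inr false) (Sum.inr true),
    Cfsg.Agent.StdAlt.PermTypes.cyc_mem_alt (by simp) (by simp)⟩, hf _ (Sum.inl i) (by simp) (by simp) rfl⟩

end Rel

end Cfsg.Agent.H110.PrimeAbs
end

-- part: H110/Prime
section
/-!
# `Alt (p + 2)` has a presentation with 2 generators and 4 relators, `p` an odd prime (helper110, helper173)
-/

set_option autoImplicit false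

namespace Cfsg.Agent.H110.Prime

open Equiv Equiv.Perm
open Cfsg.Agent.StdAlt.PermTypes (cyc cyc_conj cyc_inv cyc_rot cyc_mem_alt cyc_pow_three)
open Cfsg.Agent.H110.PrimeAbs
open Cfsg.Agent.H111 Cfsg.Agent.H173.Pres Cfsg.Agent.H110.Track

variable {p : ℕ} [hp : Fact p.Prime]

/-- translation -/
def trP (p : ℕ) (a : ZMod p) : Perm (ZMod p ⊕ Bool) := Equiv.Perm.sumCongr (Equiv.addRight a) (Equiv.refl _)

/-- multiplication, exchanging the two extra points -/
def muP (r : (ZMod p)ˣ) : Perm (ZMod p ⊕ Bool) := Equiv.Perm.sumCongr (Units.mulLeft r) (swap false true)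

theorem trP_inl (a i : ZMod p) : trP p a (Sum.inl i) = Sum.inl (i + a) := rfl
theorem trP_inr (a : ZMod p) (b : Bool) : trP p a (Sum.inr b) = Sum.inr b := rfl
theorem muP_inl (r : (ZMod p)ˣ) (i : ZMod p) : muP r (Sum.inl i) = Sum.inl (r * i) := rfl
theorem muP_inr (r : (ZMod p)ˣ) (b : Bool) : muP r (Sum.inr b) = Sum.inr (swap false true b) := rfl

theorem trP_pow (a : ZMod p) (k : ℕ) : trP p a ^ k = trP p (k * a) := by
  induction k with
  | zero =>
    rw [pow_zero]
    ext x : 1
    rcases x with x | x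
    · rw [trP_inl]; simp
    · rw [trP_inr]; simp
  | succ k ih =>
    rw [pow_succ, ih]
    ext x : 1
    rcases x with x | x
    · rw [mul_apply, trP_inl, trP_inl, trP_inl]
      push_cast
      congr 1; ring
    · rw [mul_apply, trP_inr, trP_inr, trP_inr]

theorem trP_p (a : ZMod p) : trP p a ^ p = 1 := by
  rw [trP_pow, CharP.cast_eq_zero, zero_mul]
  have := trP_pow (p := p) a 0
  rw [pow_zero, Nat.cast_zero, zero_mul] at this
  exact this.symm

theorem sign_trP (hp2 : p ≠ 2) (a : ZMod p) : sign (trP p a) = 1 := by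
  have h1 : (sign (trP p a)) ^ p = 1 := by rw [← map_pow, trP_p, map_one]
  rcases Int.units_eq_one_or (sign (trP p a)) with h | h
  · exact h
  · rw [h, (hp.out.eq_two_or_odd'.resolve_left hp2).neg_one_pow] at h1
    exact absurd h1 (by decide)

theorem mulLeft_pow (r : (ZMod p)ˣ) (k : ℕ) (x : ZMod p) : ((Units.mulLeft r) ^ k) x = (r : ZMod p) ^ k * x := by
  induction k with
  | zero => simp
  | succ k ih =>
    rw [pow_succ', mul_apply, ih]
    change (r : ZMod p) * _ = _
    rw [pow_succ']; ring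

theorem sign_mulLeft (hp2 : p ≠ 2) {r : (ZMod p)ˣ} (hr : ∀ x : (ZMod p)ˣ, x ∈ Subgroup.zpowers r) :
    sign (Units.mulLeft r : Perm (ZMod p)) = -1 := by
  have h2 : 2 < p := lt_of_le_of_ne hp.out.two_le (Ne.symm hp2)
  have hr1 : (r : ZMod p) ≠ 1 := by
    intro h1
    have h3 : r = 1 := Units.ext h1
    have h4 : ∀ x : (ZMod p)ˣ, x = 1 := by
      intro x
      have := hr x
      rw [h3, Subgroup.zpowers_one_eq_bot, Subgroup.mem_bot] at this
      exact this
    have h5 : Fintype.card (ZMod p)ˣ = 1 := Fintype.card_eq_one_iff.2 ⟨1, h4⟩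
    rw [ZMod.card_units_eq_totient, Nat.totient_prime hp.out] at h5
    omega
  have hcyc : IsCycle (Units.mulLeft r : Perm (ZMod p)) := by
    refine ⟨1, by simpa using hr1, fun y hy => ?_⟩
    have hy0 : y ≠ 0 := by
      rintro rfl
      apply hy; simp
    obtain ⟨k, hk⟩ := (mem_powers_iff_mem_zpowers).2 (hr (Units.mk0 y hy0))
    refine ⟨k, ?_⟩
    rw [zpow_natCast, mulLeft_pow, mul_one]
    have := congrArg Units.val hk
    simpa using this
  have hsupp : (Units.mulLeft r : Perm (ZMod p)).support = Finset.univ.erase 0 := by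
    ext x
    rw [mem_support, Finset.mem_erase]
    constructor
    · intro hx
      refine ⟨?_, Finset.mem_univ _⟩
      rintro rfl
      apply hx; simp
    · rintro ⟨hx, -⟩ h3
      apply hr1
      change (r : ZMod p) * x = x at h3
      exact mul_eq_right₀ hx |>.1 h3
  rw [hcyc.sign, hsupp, Finset.card_erase_of_mem (Finset.mem_univ _), Finset.card_univ, ZMod.card,
    (hp.out.even_sub_one hp2).neg_one_pow]

theorem sign_muP (hp2 : p ≠ 2) {r : (ZMod p)ˣ} (hr : ∀ x : (ZMod p)ˣ, x ∈ Subgroup.zpowers r) :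
    sign (muP r) = 1 := by
  unfold muP
  rw [sign_sumCongr, sign_mulLeft hp2 hr, sign_swap (by simp)]
  simp

theorem muP_pow_apply_inl (r : (ZMod p)ˣ) (k : ℕ) (i : ZMod p) :
    (muP r ^ k) (Sum.inl i) = Sum.inl ((r : ZMod p) ^ k * i) := by
  induction k with
  | zero => simp
  | succ k ih => rw [pow_succ', mul_apply, ih, muP_inl, pow_succ', mul_assoc]

theorem muP_pow_apply_inr (r : (ZMod p)ˣ) (k : ℕ) (b : Bool) :
    (muP r ^ (2 * k)) (Sum.inr b) = Sum.inr b := by
  rw [pow_mul]
  induction k with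
  | zero => simp
  | succ k ih =>
    rw [pow_succ', mul_apply, ih, pow_two, mul_apply, muP_inr, muP_inr]
    cases b <;> rfl

theorem muP_p (hp2 : p ≠ 2) (r : (ZMod p)ˣ) : muP r ^ (p - 1) = 1 := by
  obtain ⟨k, hk⟩ := hp.out.even_sub_one hp2
  ext x : 1
  rcases x with x | x
  · rw [muP_pow_apply_inl]
    have : (r : ZMod p) ^ (p - 1) = 1 := ZMod.pow_card_sub_one_eq_one r.ne_zero
    rw [this, one_mul]; rfl
  · rw [hk, ← two_mul, muP_pow_apply_inr]; rfl

theorem mu_tr (r : (ZMod p)ˣ) (a : ZMod p) : muP r * trP p a * (muP r)⁻¹ = trP p (r * a) := by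
  rw [mul_inv_eq_iff_eq_mul]
  ext x : 1
  rcases x with x | x
  · rw [mul_apply, mul_apply, trP_inl, muP_inl, muP_inl, trP_inl, mul_add]
  · rw [mul_apply, mul_apply, trP_inr, muP_inr, trP_inr]

/-- the 3-cycle -/
def cy (i : ZMod p) : alternatingGroup (ZMod p ⊕ Bool) :=
  ⟨cyc (Sum.inl i) (Sum.inr false) (Sum.inr true), cyc_mem_alt (by simp) (by simp)⟩

theorem eq_top_of_cy (H : Subgroup (alternatingGroup (ZMod p ⊕ Bool))) (h : ∀ i, cy i ∈ H) : H = ⊤ := by
  refine Cfsg.Agent.StdAlt.Carm.eq_top_of_cyc (Ω := ZMod p ⊕ Bool) (c := Sum.inr false) (d := Sum.inr true) (by simp)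
    (by
      have := hp.out.two_le
      simp only [Fintype.card_sum, ZMod.card, Fintype.card_bool]
      omega) H ?_
  rintro σ (i | b) h1 h2 hσ
  · have : σ = cy i := Subtype.ext hσ
    rw [this]; exact h _
  · cases b <;> simp at h1 h2

/-- **Two generators and four relators.** -/
theorem alt_zmod_on (hp2 : p ≠ 2) : ∃ T : alternatingGroup (ZMod p ⊕ Bool), PresOn ![T, cy 0] 4 := by
  classical
  have h2 : 2 < p := lt_of_le_of_ne hp.out.two_le (Ne.symm hp2)
  obtain ⟨r, hr⟩ := IsCyclic.exists_generator (α := (ZMod p)ˣ)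
  have hr1 : (r : ZMod p) ≠ 1 := by
    intro h1
    have h3 : r = 1 := Units.ext h1
    have h4 : ∀ x : (ZMod p)ˣ, x = 1 := by
      intro x
      have := hr x
      rw [h3, Subgroup.zpowers_one_eq_bot, Subgroup.mem_bot] at this
      exact this
    have h5 : Fintype.card (ZMod p)ˣ = 1 := Fintype.card_eq_one_iff.2 ⟨1, h4⟩
    rw [ZMod.card_units_eq_totient, Nat.totient_prime hp.out] at h5
    omega
  have hr2 : (1 : ZMod p) - r ≠ 0 := sub_ne_zero.2 hr1.symm
  let s : ℕ := ((1 - (r : ZMod p))⁻¹).val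
  have hs : (s : ZMod p) * (1 - r) = 1 := by
    simp only [s]
    rw [ZMod.natCast_val, ZMod.cast_id', id, inv_mul_cancel₀ hr2]
  have hs1 : 1 ≤ s := by
    rw [Nat.one_le_iff_ne_zero]
    intro h0
    rw [h0, Nat.cast_zero, zero_mul] at hs
    exact zero_ne_one hs
  let T : alternatingGroup (ZMod p ⊕ Bool) := ⟨trP p 1, mem_alternatingGroup.2 (sign_trP hp2 1)⟩
  let Z : alternatingGroup (ZMod p ⊕ Bool) := cy 0
  let M : alternatingGroup (ZMod p ⊕ Bool) := ⟨muP r, mem_alternatingGroup.2 (sign_muP hp2 hr)⟩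
  have hTk : ∀ k : ℕ, T ^ k = ⟨trP p k, mem_alternatingGroup.2 (sign_trP hp2 _)⟩ := by
    intro k
    apply Subtype.ext
    rw [Subgroup.coe_pow]
    change trP p 1 ^ k = trP p k
    rw [trP_pow, mul_one]
  have hTZ : ∀ i : ZMod p, T ^ i.val * Z * (T ^ i.val)⁻¹ = cy i := by
    intro i
    rw [hTk]
    apply Subtype.ext
    rw [Subgroup.coe_mul, Subgroup.coe_mul, Subgroup.coe_inv]
    change trP p _ * cyc _ _ _ * (trP p _)⁻¹ = cyc _ _ _
    rw [cyc_conj, trP_inl, trP_inr, trP_inr, ZMod.natCast_val, ZMod.cast_id', id, zero_add]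
  let f : FreeGroup (Fin 2) →* alternatingGroup (ZMod p ⊕ Bool) := FreeGroup.lift ![T, Z]
  have hf0 : f (FreeGroup.of 0) = T := by simp [f]
  have hf1 : f (FreeGroup.of 1) = Z := by simp [f]
  have hf : Function.Surjective f := by
    rw [← MonoidHom.range_eq_top]
    apply eq_top_of_cy
    intro i
    rw [← hTZ, ← hf0, ← hf1, ← map_pow, ← map_inv, ← map_mul, ← map_mul]
    exact ⟨_, rfl⟩
  have hN : (Subgroup.normalClosure {(FreeGroup.of 1 : FreeGroup (Fin 2))}).map f = ⊤ := by
    apply eq_top_of_cy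
    intro i
    rw [← hTZ, ← hf0, ← hf1, ← map_pow, ← map_inv, ← map_mul, ← map_mul]
    exact ⟨_, Subgroup.normalClosure_normal.conj_mem _
      (Subgroup.subset_normalClosure (Set.mem_singleton _)) _, rfl⟩
  have hM : M ∈ (Subgroup.normalClosure {(FreeGroup.of 1 : FreeGroup (Fin 2))}).map f := by
    rw [hN]; exact Subgroup.mem_top _
  obtain ⟨w, hw, hwM⟩ := hM
  let t : FreeGroup (Fin 2) := FreeGroup.of 0
  let z : FreeGroup (Fin 2) := FreeGroup.of 1
  let R : List (FreeGroup (Fin 2)) := [w * t ^ s * w⁻¹ * (t ^ (s - 1))⁻¹, t ^ p * (w ^ (p - 1))⁻¹,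
    w * z * w⁻¹ * (z ^ 2)⁻¹, z ^ 3 * ((z * (t * z * t⁻¹)) ^ 2)⁻¹]
  have hZ3 : Z ^ 3 = 1 := by
    apply Subtype.ext
    rw [Subgroup.coe_pow]
    exact cyc_pow_three (by simp) (by simp) (by simp)
  have hQ : f.ker = Subgroup.normalClosure {r | r ∈ R} := by
    refine ker_of_inj f R ?_ ?_
    · intro x hx
      simp only [R, List.mem_cons, List.not_mem_nil, or_false] at hx
      rcases hx with rfl | rfl | rfl | rfl
      · rw [map_mul, map_mul, map_mul, map_pow, map_inv, map_inv, map_pow, hwM, hf0, mul_inv_eq_one, hTk, hTk]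
        apply Subtype.ext
        rw [Subgroup.coe_mul, Subgroup.coe_mul, Subgroup.coe_inv]
        change muP r * trP p _ * (muP r)⁻¹ = trP p _
        rw [mu_tr]
        congr 1
        rw [Nat.cast_sub hs1, Nat.cast_one]
        linear_combination (-1 : ZMod p) * hs
      · rw [map_mul, map_pow, map_inv, map_pow, hwM, hf0, mul_inv_eq_one]
        apply Subtype.ext
        rw [Subgroup.coe_pow, Subgroup.coe_pow]
        change trP p 1 ^ p = muP r ^ (p - 1)
        rw [trP_p, muP_p hp2]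
      · rw [map_mul, map_mul, map_mul, map_inv, map_inv, map_pow, hwM, hf1, mul_inv_eq_one]
        have h5 : Z ^ 2 = Z⁻¹ := by rw [eq_inv_iff_mul_eq_one, ← pow_succ, hZ3]
        rw [h5]
        apply Subtype.ext
        rw [Subgroup.coe_mul, Subgroup.coe_mul, Subgroup.coe_inv, Subgroup.coe_inv]
        change muP r * cyc _ _ _ * (muP r)⁻¹ = (cyc _ _ _)⁻¹
        rw [cyc_conj, muP_inl, muP_inr, muP_inr, cyc_inv, mul_zero, swap_apply_left, swap_apply_right]
        exact cyc_rot (by simp) (by simp) (by simp)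
      · rw [map_mul, map_pow, map_inv, map_pow, map_mul, map_mul, map_mul, map_inv, hf0, hf1, hZ3, one_mul,
          inv_eq_one]
        have h5 := hTZ 1
        have h6 : (1 : ZMod p).val = 1 := ZMod.val_one p
        rw [h6, pow_one] at h5
        rw [h5]
        apply Subtype.ext
        rw [Subgroup.coe_pow, Subgroup.coe_mul]
        exact Cfsg.Agent.H110.Glue.cyc_sq (by simp) (by simp) (by simp) (by simp) (by simp) (by simp)
    · intro φ θ hφ hθ hR
      have e1 := hR _ (List.mem_cons_self)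
      have e2 := hR _ (List.mem_cons_of_mem _ (List.mem_cons_self))
      have e3 := hR _ (List.mem_cons_of_mem _ (List.mem_cons_of_mem _ (List.mem_cons_self)))
      have e4 := hR _ (List.mem_cons_of_mem _ (List.mem_cons_of_mem _ (List.mem_cons_of_mem _ (List.mem_cons_self))))
      rw [map_mul, map_mul, map_mul, map_pow, map_inv, map_inv, map_pow, mul_inv_eq_one] at e1
      rw [map_mul, map_pow, map_inv, map_pow, mul_inv_eq_one] at e2
      rw [map_mul, map_mul, map_mul, map_inv, map_inv, map_pow, mul_inv_eq_one] at e3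
      rw [map_mul, map_pow, map_inv, map_pow, map_mul, map_mul, map_mul, map_inv, mul_inv_eq_one] at e4
      have hrel : Rel r s (φ t) (φ z) (φ w) := by
        refine ⟨e1, e2, e3, e4, ?_, ?_, hs1, hs, hr⟩
        · have h5 : Subgroup.normalClosure {z} ≤ (Subgroup.normalClosure {φ z}).comap φ := by
            apply Subgroup.normalClosure_le_normal
            rw [Set.singleton_subset_iff]
            exact Subgroup.subset_normalClosure (Set.mem_singleton _)
          exact h5 hw
        · rw [eq_top_iff]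
          rintro g -
          obtain ⟨x, rfl⟩ := hφ g
          induction x using FreeGroup.induction_on with
          | C1 => rw [map_one]; exact one_mem _
          | of i =>
            apply Subgroup.subset_closure
            fin_cases i
            · exact Or.inl rfl
            · exact Or.inr rfl
          | inv_of i h => rw [map_inv]; exact inv_mem h
          | mul y z hy hz => rw [map_mul]; exact mul_mem hy hz
      obtain ⟨Φ, hΦ⟩ := hrel.exists_hom
      have hsu : Function.Surjective (θ.comp Φ) := by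
        have : Function.Surjective θ := by
          intro y
          obtain ⟨x, hx⟩ := hf y
          exact ⟨φ x, by rw [hθ, hx]⟩
        exact this.comp hΦ
      have hi : Function.Injective (θ.comp Φ) := Finite.injective_iff_surjective.2 hsu
      intro x y hxy
      obtain ⟨x', rfl⟩ := hΦ x
      obtain ⟨y', rfl⟩ := hΦ y
      rw [hi hxy]
  exact ⟨T, presOn_of_ker _ hf R hQ⟩

theorem alt_zmod (hp2 : p ≠ 2) : HasPres (alternatingGroup (ZMod p ⊕ Bool)) 2 4 := by
  obtain ⟨T, hT⟩ := alt_zmod_on hp2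
  exact hT.hasPres

end Cfsg.Agent.H110.Prime
end

-- part: H110/AltPres
section
/-!
# Short presentations of the alternating and symmetric groups (helper110, helper173, helper363; S2284, S2285, S2297)

* `hasPres_alt`, `hasPres_perm` : `Alt (Fin n)`, `Sym (Fin n)`, 3 generators, 7 relators, for all `n`;
* `hasPres_alt_two`, `hasPres_perm_two` : 2 generators, 8 relators, for all `n`;
* `presOn_pair_alt`, `presOn_pair_perm` : every generating pair, 9 relators.
-/

set_option autoImplicit false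

namespace Cfsg.Agent.H110.AltPres

open Equiv Equiv.Perm
open Cfsg.Agent.H110.Perms Cfsg.Agent.H110.Glue Cfsg.Agent.H110.GluePres
open Cfsg.Agent.H111 Cfsg.Agent.H173.Pres Cfsg.Agent.H110.Track

/-- a suitable prime -/
theorem exists_prime {N : ℕ} (hN : 5 ≤ N) : ∃ p : ℕ, p.Prime ∧ p ≠ 2 ∧ p ≤ N ∧ N + 3 ≤ 2 * p := by
  rcases Nat.lt_or_ge N 12 with h | h
  · interval_cases N
    · exact ⟨5, by norm_num, by norm_num, by norm_num, by norm_num⟩
    · exact ⟨5, by norm_num, by norm_num, by norm_num, by norm_num⟩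
    · exact ⟨5, by norm_num, by norm_num, by norm_num, by norm_num⟩
    · exact ⟨7, by norm_num, by norm_num, by norm_num, by norm_num⟩
    · exact ⟨7, by norm_num, by norm_num, by norm_num, by norm_num⟩
    · exact ⟨7, by norm_num, by norm_num, by norm_num, by norm_num⟩
    · exact ⟨7, by norm_num, by norm_num, by norm_num, by norm_num⟩
  · obtain ⟨r, s, hr, hs, h1, h2, h3⟩ := Cfsg.Agent.H363.TwoPrimes.exists_two_primes (N / 2) (by omega)
    exact ⟨s, hs, by omega, by omega, by omega⟩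

/-- two generators -/
theorem two_gen_alt {W : ℕ} (hW : 1 ≤ W) : ∃ a b : alternatingGroup (Pt W), Subgroup.closure {a, b} = ⊤ := by
  obtain ⟨t, ht⟩ := Cfsg.Agent.H173.TwoGen.exists_isThreeCycle (α := Pt W) (by simp; omega)
  obtain ⟨g, hg⟩ := Cfsg.Agent.H173.TwoGen.exists_alt (⟨t, ht.mem_alternatingGroup⟩ : alternatingGroup (Pt W)) ht
  exact ⟨_, g, hg⟩

section transport

open Cfsg.Agent.StdAlt.PermTypes (cyc isThreeCycle_cyc exists_eq_cyc)

theorem map_isThreeCycle {α β : Type*} [DecidableEq α] [Fintype α] [DecidableEq β] [Fintype β] (e : α ≃ β)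
    {t : Perm α} (ht : t.IsThreeCycle) : (e.permCongrHom t).IsThreeCycle := by
  obtain ⟨i, j, k, hij, hjk, hik, rfl⟩ := exists_eq_cyc ht
  have h1 : ∀ a b : α, e.permCongrHom (swap a b) = swap (e a) (e b) := fun a b =>
    Equiv.symm_trans_swap_trans a b e
  have : e.permCongrHom (cyc i j k) = cyc (e i) (e j) (e k) := by
    unfold cyc
    rw [map_mul, h1, h1]
  rw [this]
  exact isThreeCycle_cyc (by simpa) (by simpa) (by simpa)

theorem ext_isThreeCycle {W N : ℕ} (h : W ≤ N) {t : Perm (Pt W)} (ht : t.IsThreeCycle) :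
    (ext h t).IsThreeCycle := by
  obtain ⟨i, j, k, hij, hjk, hik, rfl⟩ := exists_eq_cyc ht
  rw [ext_cyc]
  exact isThreeCycle_cyc (by simpa) (by simpa) (by simpa)

end transport

/-- the equivalence -/
noncomputable def ptEquiv (N : ℕ) : Pt N ≃ Fin (N + 2) :=
  (Equiv.sumCongr (Equiv.refl _) (Fintype.equivFinOfCardEq (by simp))).trans finSumFinEquiv

theorem alt_prime {p : ℕ} (hp : p.Prime) (hp2 : p ≠ 2) :
    ∃ g : Fin 2 → alternatingGroup (Pt p), PresOn g 4 ∧ ((g 1 : alternatingGroup (Pt p)) : Perm (Pt p)).IsThreeCycle := by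
  have : Fact p.Prime := ⟨hp⟩
  obtain ⟨T, hT⟩ := Cfsg.Agent.H110.Prime.alt_zmod_on hp2
  have e : ZMod p ⊕ Bool ≃ Pt p := Equiv.sumCongr (Fintype.equivFinOfCardEq (ZMod.card p)) (Equiv.refl _)
  refine ⟨_, hT.map e.altCongrHom, ?_⟩
  change (e.permCongrHom _).IsThreeCycle
  apply map_isThreeCycle
  exact Cfsg.Agent.StdAlt.PermTypes.isThreeCycle_cyc (by simp) (by simp) (by simp)

theorem kap_conj_mem {p : ℕ} (x : alternatingGroup (Pt p)) :
    kap p * (alternatingGroup (Pt p)).subtype x * (kap p)⁻¹ ∈ (alternatingGroup (Pt p)).subtype.range := by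
  rw [Subgroup.range_subtype, mem_alternatingGroup, map_mul, map_mul, Subgroup.coe_subtype,
    mem_alternatingGroup.1 x.2, mul_one, map_inv, mul_inv_cancel]

theorem alt_main {N : ℕ} (hN : 5 ≤ N) :
    ∃ g : Fin 2 ⊕ Fin 1 → alternatingGroup (Pt N), PresOn g 7 ∧
      ((g (Sum.inl 1) : alternatingGroup (Pt N)) : Perm (Pt N)).IsThreeCycle := by
  obtain ⟨p, hp, hp2, h1, h2⟩ := exists_prime hN
  obtain ⟨g, hg, hg1⟩ := alt_prime hp hp2
  rcases h1.lt_or_eq with h | rfl
  · refine ⟨_, alt_on h h2 hg (two_gen_alt (by omega)), ?_⟩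
    exact ext_isThreeCycle _ hg1
  · have h3 := presOn_coprod hg (presOn_free (Fin 1))
    have h4 := presOn_quo h3 (Monoid.Coprod.lift (MonoidHom.id _) 1) (fun x => ⟨Monoid.Coprod.inl x, by simp⟩)
      [Monoid.Coprod.inr (FreeGroup.of 0)] (by
        apply ker_of_inj
        · intro r hr
          rw [List.mem_singleton] at hr
          subst hr; simp
        · intro φ θ hφ hθ hR
          have h5 := hR _ (List.mem_singleton.2 rfl)
          have e : (φ.comp Monoid.Coprod.inl).comp (θ.comp φ) = φ := by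
            apply Monoid.Coprod.hom_ext
            · ext y; simp [hθ]
            · ext y
              have : y = 0 := Subsingleton.elim _ _
              subst this
              simp [hθ, h5]
          intro x y hxy
          obtain ⟨x', rfl⟩ := hφ x
          obtain ⟨y', rfl⟩ := hφ y
          have h6 := DFunLike.congr_fun e x'
          have h7 := DFunLike.congr_fun e y'
          rw [← h6, ← h7]
          simp only [MonoidHom.comp_apply]
          rw [hxy])
    refine ⟨_, h4.mono (by simp), ?_⟩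
    simpa using hg1

theorem sym_main {N : ℕ} (hN : 5 ≤ N) :
    ∃ g : Fin 2 ⊕ Fin 1 → Perm (Pt N), PresOn g 7 ∧ (g (Sum.inl 1)).IsThreeCycle := by
  obtain ⟨p, hp, hp2, h1, h2⟩ := exists_prime hN
  obtain ⟨g, hg, hg1⟩ := alt_prime hp hp2
  rcases h1.lt_or_eq with h | rfl
  · refine ⟨_, sym_on h h2 hg (two_gen_alt (by omega)), ?_⟩
    exact ext_isThreeCycle _ hg1
  · refine ⟨_, cyclic_ext hg (alternatingGroup (Pt p)).subtype (Subgroup.subtype_injective _) (kap p) ?_
      (two_gen_alt (by omega)) kap_conj_mem (n := 2) (by norm_num) ?_ ?_, ?_⟩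
    · rw [Subgroup.range_subtype, eq_top_iff]
      intro σ _
      rcases Int.units_eq_one_or (sign σ) with h3 | h3
      · exact Subgroup.mem_sup_left (mem_alternatingGroup.2 h3)
      · have h4 : σ * kap p ∈ alternatingGroup (Pt p) := by
          rw [mem_alternatingGroup, map_mul, h3, sign_kap]
          simp
        have h5 := mul_mem (Subgroup.mem_sup_left h4 : σ * kap p ∈ alternatingGroup (Pt p) ⊔ Subgroup.zpowers (kap p))
          (Subgroup.mem_sup_right (Subgroup.mem_zpowers (kap p)))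
        rwa [mul_assoc, kap_sq, mul_one] at h5
    · rw [pow_two, kap_sq]; exact one_mem _
    · intro j hj1 hj2
      have : j = 1 := by omega
      subst this
      rw [pow_one, Subgroup.range_subtype, mem_alternatingGroup, sign_kap]
      decide
    · exact hg1

section final

variable (n : ℕ)

theorem alt_tr (hn : 7 ≤ n) : ∃ g : Fin 2 ⊕ Fin 1 → alternatingGroup (Fin n), PresOn g 7 ∧
      ((g (Sum.inl 1) : alternatingGroup (Fin n)) : Perm (Fin n)).IsThreeCycle := by
  obtain ⟨N, rfl⟩ : ∃ N, n = N + 2 := ⟨n - 2, by omega⟩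
  obtain ⟨g, hg, h⟩ := alt_main (N := N) (by omega)
  refine ⟨_, hg.map (ptEquiv N).altCongrHom, ?_⟩
  exact map_isThreeCycle _ h

theorem perm_tr (hn : 7 ≤ n) : ∃ g : Fin 2 ⊕ Fin 1 → Perm (Fin n), PresOn g 7 ∧ (g (Sum.inl 1)).IsThreeCycle := by
  obtain ⟨N, rfl⟩ : ∃ N, n = N + 2 := ⟨n - 2, by omega⟩
  obtain ⟨g, hg, h⟩ := sym_main (N := N) (by omega)
  refine ⟨_, hg.map (ptEquiv N).permCongrHom, ?_⟩
  exact map_isThreeCycle _ h

/-- **Alternating groups, 3 generators, 7 relators.** -/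
theorem hasPres_alt : HasPres (alternatingGroup (Fin n)) 3 7 := by
  rcases Nat.lt_or_ge 6 n with h | h
  · obtain ⟨g, hg, -⟩ := alt_tr n h
    exact hasPres_succ_of_presOn hg
  · exact hasPres_three_alt n h

/-- **Symmetric groups, 3 generators, 7 relators.** -/
theorem hasPres_perm : HasPres (Perm (Fin n)) 3 7 := by
  rcases Nat.lt_or_ge 6 n with h | h
  · obtain ⟨g, hg, -⟩ := perm_tr n h
    exact hasPres_succ_of_presOn hg
  · exact hasPres_three_perm n h

/-- **Alternating groups, 2 generators, 8 relators.** -/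
theorem hasPres_alt_two : HasPres (alternatingGroup (Fin n)) 2 8 := by
  rcases Nat.lt_or_ge 6 n with h | h
  · obtain ⟨g, hg, ht⟩ := alt_tr n h
    obtain ⟨b, hb⟩ := Cfsg.Agent.H173.TwoGen.exists_alt _ ht
    exact hasPres_two_of_shared hg _ b hb
  · exact (hasPres_two_alt n h).mono (by norm_num)

/-- **Symmetric groups, 2 generators, 8 relators.** -/
theorem hasPres_perm_two : HasPres (Perm (Fin n)) 2 8 := by
  rcases Nat.lt_or_ge 6 n with h | h
  · obtain ⟨g, hg, ht⟩ := perm_tr n h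
    obtain ⟨b, hb⟩ := Cfsg.Agent.H173.TwoGen.exists_perm _ ht
    exact hasPres_two_of_shared hg _ b hb
  · exact (hasPres_two_perm n h).mono (by norm_num)

end final

end Cfsg.Agent.H110.AltPres
end
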