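import Cfsg.Agent.StdAlt.Carm
import Cfsg.Agent.StdAlt.PermTypes
import Cfsg.Agent.H111.Pres
import Cfsg.Agent.H173.PresChange
set_option linter.all false

-- part: H110/Chain
section
/-!
# A chain of 3-cycles (helper110, cluster S2284-S2297)

`c`, `x`, `t` elements of a group, `X i` = the conjugate of `x` by `c ^ i` (up to sign). Relations inside a window of
length `W` and the periodicity of `t` give Carmichael's relations for `X 0, …, X (N - 1)`, `N ≤ 2 W - 3`.
-/

set_option autoImplicit false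

namespace Cfsg.Agent.H110.Chain

open Equiv Equiv.Perm
open Cfsg.Agent.StdAlt.PermTypes (cyc)

variable {J : Type*} [Group J]

/-- the conjugates of `x`, with sign -/
def X (c x : J) (e : ℤˣ) (i : ℕ) : J := c ^ i * x ^ (((e ^ i : ℤˣ)) : ℤ) * (c ^ i)⁻¹

/-- the conjugates of `t` -/
def T (c t : J) (i : ℕ) : J := c ^ i * t * (c ^ i)⁻¹

theorem X_zero (c x : J) (e : ℤˣ) : X c x e 0 = x := by simp [X]

theorem T_zero (c t : J) : T c t 0 = t := by simp [T]

theorem conj_zpow' (c x : J) (n : ℤ) : c * x ^ n * c⁻¹ = (c * x * c⁻¹) ^ n := (conj_zpow).symm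

theorem X_succ (c x : J) (e : ℤˣ) (i : ℕ) : c * X c x e i * c⁻¹ = X c x e (i + 1) ^ (e : ℤ) := by
  unfold X
  have h1 : (e ^ (i + 1) * e : ℤˣ) = e ^ i := by
    rw [pow_succ, mul_assoc (e ^ i) e e, Int.units_mul_self, mul_one]
  rw [← conj_zpow', ← zpow_mul, ← Units.val_mul, h1, pow_succ' c i, mul_inv_rev]
  simp only [mul_assoc]

theorem X_succ' (c x : J) (e : ℤˣ) (i : ℕ) : c * X c x e i ^ (e : ℤ) * c⁻¹ = X c x e (i + 1) := by
  rw [conj_zpow', X_succ, ← zpow_mul, ← Units.val_mul, Int.units_mul_self, Units.val_one, zpow_one]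

theorem T_succ (c t : J) (i : ℕ) : c * T c t i * c⁻¹ = T c t (i + 1) := by
  unfold T
  rw [pow_succ' c i, mul_inv_rev]
  group

theorem sq_swap {a b : J} (h : (a * b) ^ 2 = 1) : (b * a) ^ 2 = 1 := by
  have : (b * a) ^ 2 = a⁻¹ * (a * b) ^ 2 * a := by rw [pow_two, pow_two]; group
  rw [this, h]; group

theorem sq_e {a b : J} (e : ℤˣ) (h : (a ^ (e : ℤ) * b ^ (e : ℤ)) ^ 2 = 1) : (a * b) ^ 2 = 1 := by
  rcases Int.units_eq_one_or e with rfl | rfl
  · simpa using h
  · simp only [Units.val_neg, Units.val_one, zpow_neg, zpow_one] at h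
    have h1 : (b * a) ^ 2 = 1 := by
      have : (b * a) ^ 2 = ((a⁻¹ * b⁻¹) ^ 2)⁻¹ := by rw [pow_two, pow_two]; group
      rw [this, h, inv_one]
    exact sq_swap h1

theorem sq_conj (g a b : J) : (g * a * g⁻¹ * (g * b * g⁻¹)) ^ 2 = g * (a * b) ^ 2 * g⁻¹ := by
  rw [pow_two, pow_two]; group

theorem commute_conj {a b : J} (g : J) (h : Commute a b) : Commute (g * a * g⁻¹) (g * b * g⁻¹) := by
  have : g * a * g⁻¹ * (g * b * g⁻¹) = g * b * g⁻¹ * (g * a * g⁻¹) := by
    have h1 : g * a * g⁻¹ * (g * b * g⁻¹) = g * (a * b) * g⁻¹ := by group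
    have h2 : g * b * g⁻¹ * (g * a * g⁻¹) = g * (b * a) * g⁻¹ := by group
    rw [h1, h2, h.eq]
  exact this

theorem commute_of_e {a b : J} (e : ℤˣ) (h : Commute a (b ^ (e : ℤ))) : Commute a b := by
  rcases Int.units_eq_one_or e with rfl | rfl
  · simpa using h
  · simpa using h

variable {c x t : J} {e : ℤˣ}

theorem P_succ {i j : ℕ} (h : (X c x e i * X c x e j) ^ 2 = 1) :
    (X c x e (i + 1) * X c x e (j + 1)) ^ 2 = 1 := by
  apply sq_e e
  rw [← X_succ, ← X_succ, sq_conj, h]; group

theorem P_add {i j : ℕ} (h : (X c x e i * X c x e j) ^ 2 = 1) (k : ℕ) :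
    (X c x e (i + k) * X c x e (j + k)) ^ 2 = 1 := by
  induction k with
  | zero => exact h
  | succ k ih => exact P_succ ih

theorem Q_succ {i j : ℕ} (h : Commute (T c t i) (X c x e j)) : Commute (T c t (i + 1)) (X c x e (j + 1)) := by
  apply commute_of_e e
  rw [← X_succ, ← T_succ]
  exact commute_conj c h

theorem Q_add {i j : ℕ} (h : Commute (T c t i) (X c x e j)) (k : ℕ) :
    Commute (T c t (i + k)) (X c x e (j + k)) := by
  induction k with
  | zero => exact h
  | succ k ih => exact Q_succ ih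

theorem R_all (hR : t * x * t⁻¹ = X c x e 1) (i : ℕ) : T c t i * X c x e i * (T c t i)⁻¹ = X c x e (i + 1) := by
  induction i with
  | zero => rw [T_zero, X_zero]; exact hR
  | succ i ih =>
    rw [← X_succ' c x e i, ← X_succ' c x e (i + 1), ← T_succ, ← ih]
    simp only [← conj_zpow']
    group

/-- **Carmichael's relations from a window.** -/
theorem pairs {W N : ℕ} (hN : N + 3 ≤ 2 * W)
    (hP : ∀ d, 1 ≤ d → d < W → (X c x e 0 * X c x e d) ^ 2 = 1)
    (hR : t * x * t⁻¹ = X c x e 1)
    (hQ : ∀ k, 1 ≤ k → k + 3 ≤ W → Commute (T c t k) (X c x e 0))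
    (hc : Commute (c ^ N) t) {i j : ℕ} (hij : i < j) (hj : j < N) :
    (X c x e i * X c x e j) ^ 2 = 1 := by
  -- far commutation
  have far : ∀ d, W ≤ d → d < N → Commute (T c t 0) (X c x e d) := by
    intro d h1 h2
    have h3 : T c t 0 = T c t N := by
      rw [T_zero]
      unfold T
      rw [hc.eq]; group
    rw [h3]
    have h4 := Q_add (hQ (N - d) (by omega) (by omega)) d
    rwa [zero_add, Nat.sub_add_cancel h2.le] at h4
  obtain ⟨d, rfl⟩ : ∃ d, j = i + d := ⟨j - i, by omega⟩
  -- induction on the distance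
  induction d using Nat.strong_induction_on generalizing i with
  | _ d ih =>
    by_cases hd : d < W
    · have := P_add (hP d (by omega) hd) i
      rwa [zero_add, add_comm d i] at this
    · have h1 := ih (d - 1) (by omega) (i := i + 1) (by omega) (by omega)
      rw [show i + 1 + (d - 1) = i + d by omega] at h1
      have h2 := R_all hR i
      have h3 := Q_add (far d (by omega) (by omega)) i
      rw [zero_add, add_comm d i] at h3
      rw [← h2] at h1
      have h4 : X c x e (i + d) = T c t i * X c x e (i + d) * (T c t i)⁻¹ := by rw [h3.eq]; group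
      rw [h4, sq_conj] at h1
      have h5 : (X c x e i * X c x e (i + d)) ^ 2 =
          (T c t i)⁻¹ * (T c t i * (X c x e i * X c x e (i + d)) ^ 2 * (T c t i)⁻¹) * T c t i := by group
      rw [h5, h1]; group

theorem cube (h3 : x ^ 3 = 1) (i : ℕ) : X c x e i ^ 3 = 1 := by
  unfold X
  have h1 : (x ^ (((e ^ i : ℤˣ)) : ℤ)) ^ 3 = 1 := by
    rw [← zpow_natCast, ← zpow_mul, mul_comm, zpow_mul, zpow_natCast, h3, one_zpow]
  rw [conj_pow, h1]
  group

/-- the homomorphism -/
theorem exists_hom {W N : ℕ} (h3N : 3 ≤ N + 2) (hN : N + 3 ≤ 2 * W) (h3 : x ^ 3 = 1)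
    (hP : ∀ d, 1 ≤ d → d < W → (X c x e 0 * X c x e d) ^ 2 = 1)
    (hR : t * x * t⁻¹ = X c x e 1)
    (hQ : ∀ k, 1 ≤ k → k + 3 ≤ W → Commute (T c t k) (X c x e 0))
    (hc : Commute (c ^ N) t) :
    ∃ Φ : alternatingGroup (Fin N ⊕ Bool) →* J, ∀ (σ : alternatingGroup (Fin N ⊕ Bool)) (i : Fin N),
      (σ : Perm (Fin N ⊕ Bool)) = cyc (Sum.inl i) (Sum.inr false) (Sum.inr true) → Φ σ = X c x e i := by
  have hpair : ∀ i j : ℕ, i < N → j < N → i ≠ j → (X c x e i * X c x e j) ^ 2 = 1 := by
    intro i j hi hj hij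
    rcases Nat.lt_or_gt_of_ne hij with h | h
    · exact pairs hN hP hR hQ hc h hj
    · exact sq_swap (pairs hN hP hR hQ hc h hi)
  obtain ⟨f, hf⟩ := Cfsg.Agent.StdAlt.Carm.exists_hom (G := J) (Ω := Fin N ⊕ Bool)
    (c := Sum.inr false) (d := Sum.inr true) (by simp) (by simpa using h3N)
    (y := Sum.elim (fun i : Fin N => X c x e i) (fun _ => 1))
    (by
      rintro (i | b) h1 h2
      · exact cube h3 _
      · simp)
    (by
      rintro (i | b) (j | b') h1 h2 h3 h4 h5
      · exact hpair i j i.2 j.2 (fun h => h5 (by rw [Fin.ext h]))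
      · cases b' <;> simp at h3 h4
      · cases b <;> simp at h1 h2
      · cases b <;> simp at h1 h2)
  refine ⟨f, fun σ i hσ => ?_⟩
  exact hf σ (Sum.inl i) (by simp) (by simp) hσ

end Cfsg.Agent.H110.Chain
end

-- part: H110/Perms
section
/-!
# Permutations of `Fin N ⊕ Bool` (helper110, cluster S2284-S2297)

`rot N` is the cycle `(0 1 … N-1)`, `kap` the transposition of the two points of `Bool`, `ext h` the extension of the
permutations of `Fin W ⊕ Bool` by the identity.
-/

set_option autoImplicit false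

namespace Cfsg.Agent.H110.Perms

open Equiv Equiv.Perm
open Cfsg.Agent.StdAlt.PermTypes (cyc cyc_conj cyc_inv cyc_rot cyc_mem_alt)

/-- the points -/
abbrev Pt (N : ℕ) := Fin N ⊕ Bool

/-- the inclusion of points -/
def emb {W N : ℕ} (h : W ≤ N) : Pt W ↪ Pt N :=
  ⟨Sum.map (Fin.castLE h) id, by
    rintro (a | a) (b | b) hab
    · simpa using hab
    · simp at hab
    · simp at hab
    · simpa using hab⟩

/-- a point of the cycle -/
def pt {N : ℕ} (i : ℕ) (h : i < N) : Pt N := Sum.inl ⟨i, h⟩

theorem pt_inj {N i j : ℕ} {h : i < N} {h' : j < N} : pt i h = pt j h' ↔ i = j := by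
  simp [pt]

theorem pt_ne_inr {N i : ℕ} {h : i < N} {b : Bool} : pt i h ≠ Sum.inr b := by simp [pt]

theorem emb_pt {W N : ℕ} (h : W ≤ N) {i : ℕ} (hi : i < W) : emb h (pt i hi) = pt i (hi.trans_le h) := rfl

theorem emb_inr {W N : ℕ} (h : W ≤ N) (b : Bool) : emb h (Sum.inr b) = Sum.inr b := rfl

/-- extension by the identity -/
noncomputable def ext {W N : ℕ} (h : W ≤ N) : Perm (Pt W) →* Perm (Pt N) := viaEmbeddingHom (emb h)

theorem ext_injective {W N : ℕ} (h : W ≤ N) : Function.Injective (ext h) := viaEmbeddingHom_injective _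

theorem ext_apply_emb {W N : ℕ} (h : W ≤ N) (σ : Perm (Pt W)) (x : Pt W) :
    ext h σ (emb h x) = emb h (σ x) := viaEmbedding_apply _ _ _

theorem ext_swap {W N : ℕ} (h : W ≤ N) (a b : Pt W) : ext h (swap a b) = swap (emb h a) (emb h b) := by
  ext x : 1
  by_cases hx : x ∈ Set.range (emb h)
  · obtain ⟨y, rfl⟩ := hx
    rw [ext_apply_emb, swap_apply_def, swap_apply_def]
    simp only [(emb h).injective.eq_iff]
    split_ifs <;> rfl
  · have h1 : ext h (swap a b) x = x := viaEmbedding_apply_of_notMem _ _ _ hx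
    rw [h1, swap_apply_of_ne_of_ne]
    · rintro rfl; exact hx ⟨_, rfl⟩
    · rintro rfl; exact hx ⟨_, rfl⟩

theorem ext_cyc {W N : ℕ} (h : W ≤ N) (a b d : Pt W) :
    ext h (cyc a b d) = cyc (emb h a) (emb h b) (emb h d) := by
  unfold cyc
  rw [map_mul, ext_swap, ext_swap]

theorem sign_ext {W N : ℕ} (h : W ≤ N) (σ : Perm (Pt W)) : sign (ext h σ) = sign σ := by
  classical
  have : ext h σ = σ.extendDomain (Equiv.ofInjective (emb h) (emb h).injective) := by
    unfold ext
    rw [viaEmbeddingHom_apply]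
    unfold viaEmbedding
    ext x : 1
    congr
  rw [this]
  exact sign_extendDomain _ _

/-- the transposition of the two extra points -/
def kap (N : ℕ) : Perm (Pt N) := swap (Sum.inr false) (Sum.inr true)

/-- the points of the cycle -/
def pts (N : ℕ) : List (Pt N) := (List.finRange N).map Sum.inl

theorem length_pts (N : ℕ) : (pts N).length = N := by simp [pts]

theorem nodup_pts (N : ℕ) : (pts N).Nodup := (List.nodup_finRange N).map Sum.inl_injective

theorem getElem_pts {N : ℕ} (i : ℕ) (h : i < (pts N).length) : (pts N)[i] = pt i (by simpa [pts] using h) := by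
  simp [pts, pt]

/-- the cycle `(0 1 … N-1)` -/
def rot (N : ℕ) : Perm (Pt N) := (pts N).formPerm

theorem rot_apply {N i : ℕ} (h : i + 1 < N) : rot N (pt i (by omega)) = pt (i + 1) h := by
  have := List.formPerm_apply_lt_getElem (pts N) (nodup_pts N) i (by rw [length_pts]; exact h)
  rw [getElem_pts, getElem_pts] at this
  exact this

theorem inr_notMem_pts {N : ℕ} (b : Bool) : (Sum.inr b : Pt N) ∉ pts N := by simp [pts]

theorem rot_inr {N : ℕ} (b : Bool) : rot N (Sum.inr b) = Sum.inr b :=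
  List.formPerm_apply_of_notMem (inr_notMem_pts b)

theorem rot_pow (N : ℕ) : rot N ^ N = 1 := by
  have := List.formPerm_pow_length_eq_one_of_nodup _ (nodup_pts N)
  rwa [length_pts] at this

theorem sign_formPerm {α : Type*} [DecidableEq α] [Fintype α] (x : α) (l : List α) (h : (x :: l).Nodup) :
    sign ((x :: l).formPerm) = (-1) ^ l.length := by
  induction l generalizing x with
  | nil => simp
  | cons y l ih =>
    rw [List.formPerm_cons_cons, map_mul, ih y h.of_cons, sign_swap, List.length_cons, pow_succ']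
    rintro rfl
    simp at h

theorem pts_eq {N : ℕ} (h : 0 < N) : ∃ l, pts N = pt 0 h :: l ∧ l.length = N - 1 := by
  rcases hl : pts N with _ | ⟨x, l⟩
  · have := length_pts N
    rw [hl] at this
    simp at this; omega
  · have h1 := getElem_pts (N := N) 0 (by rw [length_pts]; exact h)
    have h2 := length_pts N
    simp only [hl, List.getElem_cons_zero, List.length_cons] at h1 h2
    exact ⟨l, by rw [h1], by omega⟩

theorem pts_eq2 {N : ℕ} (h : 1 < N) : ∃ l, pts N = pt 0 (by omega) :: pt 1 h :: l ∧ l.length = N - 2 := by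
  obtain ⟨l, h1, h2⟩ := pts_eq (N := N) (by omega)
  rcases l with _ | ⟨y, l⟩
  · simp at h2; omega
  · have h3 := getElem_pts (N := N) 1 (by rw [length_pts]; exact h)
    simp only [h1, List.getElem_cons_succ, List.getElem_cons_zero] at h3
    refine ⟨l, by rw [h1, h3], ?_⟩
    simp only [List.length_cons] at h2; omega

theorem pts_eq3 {N : ℕ} (h : 2 < N) :
    ∃ l, pts N = pt 0 (by omega) :: pt 1 (by omega) :: pt 2 h :: l ∧ l.length = N - 3 := by
  obtain ⟨l, h1, h2⟩ := pts_eq2 (N := N) (by omega)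
  rcases l with _ | ⟨y, l⟩
  · simp at h2; omega
  · have h3 := getElem_pts (N := N) 2 (by rw [length_pts]; exact h)
    simp only [h1, List.getElem_cons_succ, List.getElem_cons_zero] at h3
    refine ⟨l, by rw [h1, h3], ?_⟩
    simp only [List.length_cons] at h2; omega

theorem sign_rot {N : ℕ} (h : 0 < N) : sign (rot N) = (-1) ^ (N - 1) := by
  obtain ⟨l, h1, h2⟩ := pts_eq h
  have h3 := nodup_pts N
  unfold rot
  rw [h1] at h3 ⊢
  rw [sign_formPerm _ _ h3, h2]

theorem commute_kap {N : ℕ} {σ : Perm (Pt N)} (h : ∀ b, σ (Sum.inr b) = Sum.inr b) : Commute (kap N) σ := by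
  have : kap N * σ = σ * kap N := by
    unfold kap
    rw [mul_swap_eq_swap_mul, h, h]
  exact this

theorem formPerm_inr {N : ℕ} {l l' : List (Pt N)} (h : pts N = l ++ l') (b : Bool) :
    l'.formPerm (Sum.inr b) = Sum.inr b := by
  apply List.formPerm_apply_of_notMem
  intro hb
  exact inr_notMem_pts (N := N) b (by rw [h]; simp [hb])

theorem rot_eq2 {N : ℕ} (h : 1 < N) : ∃ ρ : Perm (Pt N), rot N = swap (pt 0 (by omega)) (pt 1 h) * ρ ∧
    ρ ^ (N - 1) = 1 ∧ Commute (kap N) ρ := by
  obtain ⟨l, h1, h2⟩ := pts_eq2 h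
  refine ⟨(pt 1 h :: l).formPerm, ?_, ?_, ?_⟩
  · unfold rot; rw [h1, List.formPerm_cons_cons]
  · have h3 := nodup_pts N
    rw [h1] at h3
    have := List.formPerm_pow_length_eq_one_of_nodup _ h3.of_cons
    rwa [List.length_cons, h2, show N - 2 + 1 = N - 1 by omega] at this
  · exact commute_kap fun b => formPerm_inr (l := [pt 0 (by omega)]) (by rw [h1]; rfl) b

theorem rot_eq3 {N : ℕ} (h : 2 < N) :
    ∃ ρ : Perm (Pt N), rot N = cyc (pt 0 (by omega)) (pt 1 (by omega)) (pt 2 h) * ρ ∧
    ρ ^ (N - 2) = 1 ∧ Commute (kap N) ρ := by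
  obtain ⟨l, h1, h2⟩ := pts_eq3 h
  refine ⟨(pt 2 h :: l).formPerm, ?_, ?_, ?_⟩
  · unfold rot cyc; rw [h1, List.formPerm_cons_cons, List.formPerm_cons_cons, mul_assoc]
  · have h3 := nodup_pts N
    rw [h1] at h3
    have := List.formPerm_pow_length_eq_one_of_nodup _ h3.of_cons.of_cons
    rwa [List.length_cons, h2, show N - 3 + 1 = N - 2 by omega] at this
  · exact commute_kap fun b =>
      formPerm_inr (l := [pt 0 (by omega), pt 1 (by omega)]) (by rw [h1]; rfl) b

theorem kap_sq (N : ℕ) : kap N * kap N = 1 := swap_mul_self _ _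

theorem sign_kap (N : ℕ) : sign (kap N) = -1 := sign_swap (by simp)

end Cfsg.Agent.H110.Perms
end

-- part: H110/Glue
section
/-!
# Gluing windows: from `Alt (W + 2)` to `Alt (N + 2)` and `Sym (N + 2)` (helper110, cluster S2284-S2297)

`φ : Alt (Fin W ⊕ Bool) → J`, `c : J` acts on the image of the stabiliser of the last point of the window like
`rot N * kap N ^ ε`.
-/

set_option autoImplicit false

namespace Cfsg.Agent.H110.Glue

open Equiv Equiv.Perm
open Cfsg.Agent.StdAlt.PermTypes (cyc cyc_conj cyc_inv cyc_rot cyc_mem_alt cyc_apply_of_ne cyc_pow_three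
  cyc_apply_fst cyc_apply_snd cyc_apply_thd swap_conj)
open Cfsg.Agent.H110.Perms Cfsg.Agent.H110.Chain

/-! ### permutation identities -/

section perm

variable {α : Type*} [Fintype α] [DecidableEq α]

theorem cyc_mul_cyc {a b c d : α} (hac : a ≠ c) (had : a ≠ d) (hbc : b ≠ c) (hbd : b ≠ d) :
    cyc a c d * cyc b c d = swap a c * swap b d := by
  unfold cyc
  have h : swap c d * swap b c * (swap c d)⁻¹ = swap b d := by
    rw [swap_conj, swap_apply_of_ne_of_ne hbc hbd, swap_apply_left]
  rw [swap_inv] at h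
  calc swap a c * swap c d * (swap b c * swap c d) = swap a c * (swap c d * swap b c * swap c d) := by group
    _ = _ := by rw [h]

theorem cyc_sq {a b c d : α} (hab : a ≠ b) (hac : a ≠ c) (had : a ≠ d) (hbc : b ≠ c) (hbd : b ≠ d) (hcd : c ≠ d) :
    (cyc a c d * cyc b c d) ^ 2 = 1 := by
  rw [cyc_mul_cyc hac had hbc hbd]
  have h : Commute (swap a c) (swap b d) := by
    have : swap a c * swap b d = swap b d * swap a c := by
      rw [mul_swap_eq_swap_mul, swap_apply_of_ne_of_ne hab.symm hbc,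
        swap_apply_of_ne_of_ne had.symm hcd.symm]
    exact this
  rw [h.mul_pow, pow_two, pow_two, swap_mul_self, swap_mul_self, one_mul]

/-- the double transposition as a word in two 3-cycles -/
theorem cyc_word {a b c d : α} (hab : a ≠ b) (hac : a ≠ c) (had : a ≠ d) (hbc : b ≠ c) (hbd : b ≠ d) (hcd : c ≠ d) :
    cyc a c d * cyc b c d ^ 2 * cyc a c d = swap a b * swap c d := by
  have h1 : cyc a c d * cyc b c d ^ 2 * cyc a c d = (cyc a c d * cyc b c d) * (cyc b c d * cyc a c d) := by
    rw [pow_two]; group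
  rw [h1, cyc_mul_cyc hac had hbc hbd, cyc_mul_cyc hbc hbd hac had]
  have h2 : swap b d * swap b c = cyc d b c := by unfold cyc; rw [swap_comm d b]
  have h3 : cyc d b c * swap a d = swap a b * cyc d b c := by
    rw [mul_swap_eq_swap_mul, cyc_apply_of_ne had hab hac, cyc_apply_fst hcd.symm hbd.symm]
  have h4 : swap a c * swap a b = swap a b * swap b c := by
    have : cyc c a b = cyc a b c := cyc_rot hac.symm hab hbc.symm
    unfold cyc at this
    rw [swap_comm a c, this]
  have h5 : swap b c * swap d b * swap b c = swap d c := by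
    have : swap b c * swap d b * (swap b c)⁻¹ = swap d c := by
      rw [swap_conj, swap_apply_of_ne_of_ne hbd.symm hcd.symm, swap_apply_left]
    rwa [swap_inv] at this
  calc swap a c * swap b d * (swap b c * swap a d) = swap a c * ((swap b d * swap b c) * swap a d) := by group
    _ = swap a c * (swap a b * cyc d b c) := by rw [h2, h3]
    _ = swap a c * swap a b * cyc d b c := by group
    _ = swap a b * (swap b c * swap d b * swap b c) := by rw [h4]; unfold cyc; group
    _ = swap a b * swap c d := by rw [h5, swap_comm d c]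

end perm

/-! ### the elements -/

/-- the 3-cycle `(i ∞ ∞')` -/
def xx {N : ℕ} (i : ℕ) (h : i < N) : alternatingGroup (Pt N) :=
  ⟨cyc (pt i h) (Sum.inr false) (Sum.inr true), cyc_mem_alt (by simp [pt]) (by simp)⟩

/-- the 3-cycle `(i i+1 i+2)` -/
def tt {N : ℕ} (i : ℕ) (h : i + 2 < N) : alternatingGroup (Pt N) :=
  ⟨cyc (pt i (by omega)) (pt (i + 1) (by omega)) (pt (i + 2) h),
    cyc_mem_alt (by simp [pt]) (by simp [pt])⟩

/-- the double transposition `(i i+1)(∞ ∞')` -/
def ss {N : ℕ} (i : ℕ) (h : i + 1 < N) : alternatingGroup (Pt N) :=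
  xx i (by omega) * xx (i + 1) h ^ 2 * xx i (by omega)

theorem coe_ss {N : ℕ} (i : ℕ) (h : i + 1 < N) :
    (ss i h : Perm (Pt N)) = swap (pt i (by omega)) (pt (i + 1) h) * kap N := by
  unfold ss kap
  rw [Subgroup.coe_mul, Subgroup.coe_mul, Subgroup.coe_pow]
  exact cyc_word (by simp [pt]) (by simp [pt]) (by simp [pt]) (by simp [pt]) (by simp [pt]) (by simp)

theorem tt_eq {N : ℕ} (i : ℕ) (h : i + 2 < N) : tt i h = ss i (by omega) * ss (i + 1) h := by
  apply Subtype.ext
  rw [Subgroup.coe_mul, coe_ss, coe_ss]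
  have h1 : swap (pt i (by omega)) (pt (i + 1) (by omega)) * kap N *
      (swap (pt (i + 1) (by omega)) (pt (i + 2) h) * kap N) =
      swap (pt i (by omega)) (pt (i + 1) (by omega)) *
      (kap N * swap (pt (i + 1) (by omega)) (pt (i + 2) h) * kap N) := by group
  refine Eq.trans ?_ h1.symm
  have h2 : kap N * swap (pt (i + 1) (by omega)) (pt (i + 2) h) =
      swap (pt (i + 1) (by omega)) (pt (i + 2) h) * kap N :=
    commute_kap fun b => swap_apply_of_ne_of_ne (by simp [pt]) (by simp [pt])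
  rw [h2, mul_assoc, kap_sq, mul_one]
  rfl

theorem tt_zero_eq {N : ℕ} (h : 0 + 2 < N) : tt 0 h = ss 0 (by omega) * ss 1 (by omega) := tt_eq 0 h

theorem xx_cube {N : ℕ} (i : ℕ) (h : i < N) : xx i h ^ 3 = 1 := by
  apply Subtype.ext
  rw [Subgroup.coe_pow]
  exact cyc_pow_three (by simp [pt]) (by simp) (by simp [pt])

theorem xx_pair {N : ℕ} {i j : ℕ} (h : i < N) (h' : j < N) (hij : i ≠ j) : (xx i h * xx j h') ^ 2 = 1 := by
  apply Subtype.ext
  rw [Subgroup.coe_pow, Subgroup.coe_mul]
  exact cyc_sq (by simpa [pt] using hij) (by simp [pt]) (by simp [pt]) (by simp [pt]) (by simp [pt]) (by simp)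

/-- extension by the identity on the alternating groups -/
noncomputable def extA {W N : ℕ} (h : W ≤ N) : alternatingGroup (Pt W) →* alternatingGroup (Pt N) :=
  ((ext h).comp (alternatingGroup (Pt W)).subtype).codRestrict _ (fun σ => by
    rw [mem_alternatingGroup, MonoidHom.comp_apply, sign_ext]
    exact mem_alternatingGroup.1 σ.2)

theorem coe_extA {W N : ℕ} (h : W ≤ N) (σ : alternatingGroup (Pt W)) :
    (extA h σ : Perm (Pt N)) = ext h σ := rfl

theorem extA_xx {W N : ℕ} (h : W ≤ N) (i : ℕ) (hi : i < W) : extA h (xx i hi) = xx i (hi.trans_le h) :=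
  Subtype.ext (ext_cyc h _ _ _)

theorem extA_tt {W N : ℕ} (h : W ≤ N) (i : ℕ) (hi : i + 2 < W) : extA h (tt i hi) = tt i (hi.trans_le h) :=
  Subtype.ext (ext_cyc h _ _ _)

theorem extA_injective {W N : ℕ} (h : W ≤ N) : Function.Injective (extA h) := by
  intro a b hab
  apply Subtype.ext
  apply ext_injective h
  rw [← coe_extA, ← coe_extA, hab]

/-- the cycle with the parity correction -/
def CC (N ε : ℕ) : Perm (Pt N) := rot N * kap N ^ ε

theorem kap_conj_xx {N : ℕ} (i : ℕ) (h : i < N) (ε : ℕ) :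
    kap N ^ ε * (xx i h : Perm (Pt N)) * (kap N ^ ε)⁻¹ = (xx i h : Perm (Pt N)) ^ ((((-1) ^ ε : ℤˣ)) : ℤ) := by
  induction ε with
  | zero => simp
  | succ ε ih =>
    have h1 : kap N ^ (ε + 1) * (xx i h : Perm (Pt N)) * (kap N ^ (ε + 1))⁻¹ =
        kap N * (kap N ^ ε * (xx i h : Perm (Pt N)) * (kap N ^ ε)⁻¹) * (kap N)⁻¹ := by
      rw [pow_succ', mul_inv_rev]; group
    have h2 : kap N * (xx i h : Perm (Pt N)) * (kap N)⁻¹ = (xx i h : Perm (Pt N))⁻¹ := by
      unfold xx kap
      simp only
      rw [cyc_conj, swap_apply_left, swap_apply_right, swap_apply_of_ne_of_ne (by simp [pt]) (by simp [pt]),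
        cyc_inv, cyc_rot (by simp [pt]) (by simp) (by simp [pt])]
    rw [h1, ih, ← conj_zpow, h2, inv_zpow, ← zpow_neg, pow_succ]
    simp

theorem CC_conj_xx {N : ℕ} (i : ℕ) (h : i + 1 < N) (ε : ℕ) :
    CC N ε * ((xx (N := N) i (by omega) : alternatingGroup (Pt N)) : Perm (Pt N)) * (CC N ε)⁻¹ =
      (xx (i + 1) h : Perm (Pt N)) ^ ((((-1) ^ ε : ℤˣ)) : ℤ) := by
  have h1 : CC N ε * ((xx (N := N) i (by omega) : alternatingGroup (Pt N)) : Perm (Pt N)) * (CC N ε)⁻¹ =
      rot N * (kap N ^ ε * ((xx (N := N) i (by omega) : alternatingGroup (Pt N)) : Perm (Pt N)) * (kap N ^ ε)⁻¹) * (rot N)⁻¹ := by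
    unfold CC; group
  rw [h1, kap_conj_xx, ← conj_zpow]
  congr 1
  unfold xx
  simp only
  rw [cyc_conj, rot_inr, rot_inr, rot_apply (N := N) (i := i) h]

theorem kap_conj_tt {N : ℕ} (i : ℕ) (h : i + 2 < N) (ε : ℕ) :
    kap N ^ ε * (tt i h : Perm (Pt N)) * (kap N ^ ε)⁻¹ = (tt i h : Perm (Pt N)) := by
  have : Commute (kap N) (tt i h : Perm (Pt N)) := commute_kap fun b => by
    unfold tt; exact cyc_apply_of_ne (by simp [pt]) (by simp [pt]) (by simp [pt])
  rw [(this.pow_left ε).eq, mul_inv_cancel_right]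

theorem CC_conj_tt {N : ℕ} (i : ℕ) (h : i + 3 < N) (ε : ℕ) :
    CC N ε * ((tt (N := N) i (by omega) : alternatingGroup (Pt N)) : Perm (Pt N)) * (CC N ε)⁻¹ = (tt (i + 1) h : Perm (Pt N)) := by
  have h1 : CC N ε * ((tt (N := N) i (by omega) : alternatingGroup (Pt N)) : Perm (Pt N)) * (CC N ε)⁻¹ =
      rot N * (kap N ^ ε * ((tt (N := N) i (by omega) : alternatingGroup (Pt N)) : Perm (Pt N)) * (kap N ^ ε)⁻¹) * (rot N)⁻¹ := by
    unfold CC; group
  rw [h1, kap_conj_tt]
  unfold tt
  simp only
  rw [cyc_conj, rot_apply (N := N) (i := i) (by omega), rot_apply (N := N) (i := i + 1) (by omega),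
    rot_apply (N := N) (i := i + 2) (by omega)]

/-! ### the analysis of the abstract group -/

section abstract

variable {W N : ℕ} {J : Type*} [Group J] {φ : alternatingGroup (Pt W) →* J} {c : J} {ε : ℕ}

/-- `c` acts on the stabiliser of the last point like `CC N ε` -/
def Acts (hWN : W < N) (φ : alternatingGroup (Pt W) →* J) (c : J) (ε : ℕ) : Prop :=
  ∀ (ρ : alternatingGroup (Pt (W - 1))) (σ' : alternatingGroup (Pt W)),
    ext hWN.le σ' = CC N ε * ext hWN.le (extA (Nat.sub_le W 1) ρ) * (CC N ε)⁻¹ →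
    c * φ (extA (Nat.sub_le W 1) ρ) * c⁻¹ = φ σ'

theorem xx_fix {i j : ℕ} (h : i < N) (h' : j < N) (hij : j ≠ i) : (xx i h : Perm (Pt N)) (pt j h') = pt j h' := by
  unfold xx
  exact cyc_apply_of_ne (by simpa [pt] using hij) (by simp [pt]) (by simp [pt])

theorem tt_fix {i j : ℕ} (h : i + 2 < N) (h' : j < N) (hij : i + 2 < j ∨ j < i) :
    (tt i h : Perm (Pt N)) (pt j h') = pt j h' := by
  unfold tt
  exact cyc_apply_of_ne (by simp [pt]; omega) (by simp [pt]; omega) (by simp [pt]; omega)

theorem zpow_unit_fix {α : Type*} {σ : Perm α} {x : α} (h : σ x = x) (e : ℤˣ) : (σ ^ (e : ℤ)) x = x := by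
  rcases Int.units_eq_one_or e with rfl | rfl
  · simpa using h
  · simp only [Units.val_neg, Units.val_one, zpow_neg, zpow_one]
    exact Equiv.Perm.inv_eq_iff_eq.2 h.symm

theorem phi_xx (hWN : W < N) (H : Acts hWN φ c ε) (hW : 0 < W) (i : ℕ) (hi : i < W) :
    φ (xx i hi) = X c (φ (xx 0 hW)) ((-1) ^ ε) i := by
  induction i with
  | zero => rw [X_zero]
  | succ i ih =>
    rw [← X_succ', ← ih (by omega), ← map_zpow]
    symm
    have h0 : xx i (by omega : i < W) ^ ((((-1) ^ ε : ℤˣ)) : ℤ) =
        extA (Nat.sub_le W 1) (xx i (by omega) ^ ((((-1) ^ ε : ℤˣ)) : ℤ)) := by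
      rw [map_zpow, extA_xx]
    rw [h0]
    apply H
    rw [← h0, ← coe_extA, ← coe_extA, map_zpow, extA_xx, extA_xx, Subgroup.coe_zpow, ← conj_zpow,
      CC_conj_xx i (by omega), ← zpow_mul, ← Units.val_mul, Int.units_mul_self, Units.val_one, zpow_one]

theorem phi_tt (hWN : W < N) (H : Acts hWN φ c ε) (hW : 0 + 2 < W) (i : ℕ) (hi : i + 2 < W) :
    φ (tt i hi) = T c (φ (tt 0 hW)) i := by
  induction i with
  | zero => rw [T_zero]
  | succ i ih =>
    rw [← T_succ, ← ih (by omega)]
    symm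
    have h0 : tt i (by omega : i + 2 < W) = extA (Nat.sub_le W 1) (tt i (by omega)) := by rw [extA_tt]
    rw [h0]
    apply H
    rw [← h0, ← coe_extA, ← coe_extA, extA_tt, extA_tt, CC_conj_tt i (by omega)]

/-- **The homomorphism from the big alternating group.** -/
theorem exists_Phi (hWN : W < N) (hN : N + 3 ≤ 2 * W) (H : Acts hWN φ c ε)
    (hc : Commute (c ^ N) (φ (tt 0 (by omega)))) :
    ∃ Φ : alternatingGroup (Pt N) →* J, (∀ σ, Φ (extA hWN.le σ) = φ σ) ∧
      ∀ i (h : i < N), Φ (xx i h) = X c (φ (xx 0 (by omega))) ((-1) ^ ε) i := by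
  obtain ⟨Φ, hΦ⟩ := exists_hom (J := J) (W := W) (N := N) (c := c) (x := φ (xx 0 (by omega)))
    (t := φ (tt 0 (by omega))) (e := (-1) ^ ε) (by omega) hN
    (by rw [← map_pow, xx_cube, map_one])
    (by
      intro d h1 h2
      rw [X_zero, ← phi_xx hWN H (by omega) d h2, ← map_mul, ← map_pow, xx_pair _ _ (by omega), map_one])
    (by
      rw [← phi_xx hWN H (by omega) 1 (by omega), ← map_inv, ← map_mul, ← map_mul]
      congr 1
      apply Subtype.ext
      rw [Subgroup.coe_mul, Subgroup.coe_mul, Subgroup.coe_inv]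
      unfold xx tt
      simp only
      rw [cyc_conj, cyc_apply_fst (by simp [pt]) (by simp [pt]), cyc_apply_of_ne (by simp [pt]) (by simp [pt]) (by simp [pt]),
        cyc_apply_of_ne (by simp [pt]) (by simp [pt]) (by simp [pt])])
    (by
      intro k h1 h2
      rw [← phi_tt hWN H (by omega) k (by omega), X_zero]
      have : Commute (tt k (by omega : k + 2 < W)) (xx 0 (by omega)) := by
        have h3 : tt k (by omega : k + 2 < W) * xx 0 (by omega) * (tt k (by omega))⁻¹ = xx 0 (by omega) := by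
          apply Subtype.ext
          rw [Subgroup.coe_mul, Subgroup.coe_mul, Subgroup.coe_inv]
          unfold xx tt
          simp only
          rw [cyc_conj, cyc_apply_of_ne (by simp [pt]; omega) (by simp [pt]) (by simp [pt]),
            cyc_apply_of_ne (by simp [pt]) (by simp [pt]) (by simp [pt]),
            cyc_apply_of_ne (by simp [pt]) (by simp [pt]) (by simp [pt])]
        have h4 := mul_inv_eq_iff_eq_mul.1 h3
        exact h4
      exact this.map φ)
    hc
  have hx : ∀ i (h : i < N), Φ (xx i h) = X c (φ (xx 0 (by omega))) ((-1) ^ ε) i := fun i h => hΦ _ ⟨i, h⟩ rfl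
  refine ⟨Φ, ?_, hx⟩
  have htop := Cfsg.Agent.StdAlt.Carm.eq_top_of_cyc (Ω := Pt W) (c := Sum.inr false) (d := Sum.inr true) (by simp)
    (by simp; omega) ((Φ.comp (extA hWN.le)).eqLocus φ) (by
      rintro σ (i | b) h1 h2 hσ
      · have : σ = xx i.1 i.2 := Subtype.ext hσ
        rw [this]
        change Φ (extA hWN.le (xx i.1 i.2)) = φ (xx i.1 i.2)
        rw [extA_xx, hx, phi_xx hWN H (by omega) i.1 i.2]
      · cases b <;> simp at h1 h2)
  intro σ
  have : σ ∈ (Φ.comp (extA hWN.le)).eqLocus φ := by rw [htop]; exact Subgroup.mem_top _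
  exact this

/-- telescoping -/
theorem tele {R : Subgroup J} {s : J} (k : ℕ) (h : ∀ i < k, T c s i ∈ R) : (s * c) ^ k * (c ^ k)⁻¹ ∈ R := by
  induction k with
  | zero => simp
  | succ k ih =>
    have h1 : (s * c) ^ (k + 1) * (c ^ (k + 1))⁻¹ = ((s * c) ^ k * (c ^ k)⁻¹) * T c s k := by
      unfold T
      rw [pow_succ, pow_succ, mul_inv_rev]; group
    rw [h1]
    exact mul_mem (ih fun i hi => h i (by omega)) (h k (by omega))

theorem conj_mem_of_X {R : Subgroup J} {x : J} {e : ℤˣ} {i : ℕ} (h : X c x e i ∈ R) : c ^ i * x * (c ^ i)⁻¹ ∈ R := by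
  unfold X at h
  rw [← conj_zpow] at h
  rcases Int.units_eq_one_or (e ^ i) with h1 | h1
  · rw [h1] at h; simpa using h
  · rw [h1, Units.val_neg, Units.val_one, zpow_neg, zpow_one] at h
    exact inv_mem_iff.1 h

theorem T_ss_mem (hWN : W < N) (hN : N + 3 ≤ 2 * W) (H : Acts hWN φ c ε) {R : Subgroup J}
    (hR : ∀ i < N, X c (φ (xx 0 (by omega))) ((-1) ^ ε) i ∈ R) (i : ℕ) (hi : i + 1 < N) :
    T c (φ (ss 0 (by omega))) i ∈ R := by
  have h0 := conj_mem_of_X (hR i (by omega))
  have h1 : c ^ i * φ (xx 1 (by omega)) * (c ^ i)⁻¹ ∈ R := by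
    rw [phi_xx hWN H (by omega) 1 (by omega)]
    have h2 := conj_mem_of_X (hR (i + 1) hi)
    have h3 : c ^ i * X c (φ (xx 0 (by omega))) ((-1) ^ ε) 1 * (c ^ i)⁻¹ =
        (c ^ (i + 1) * φ (xx 0 (by omega)) * (c ^ (i + 1))⁻¹) ^ ((((-1) ^ ε : ℤˣ)) : ℤ) := by
      unfold X
      rw [conj_zpow, pow_one, pow_one, pow_succ, mul_inv_rev]
      simp only [mul_assoc]
    rw [h3]
    exact zpow_mem h2 _
  have h4 : T c (φ (ss 0 (by omega))) i = (c ^ i * φ (xx 0 (by omega)) * (c ^ i)⁻¹) *
      (c ^ i * φ (xx 1 (by omega)) * (c ^ i)⁻¹) ^ 2 * (c ^ i * φ (xx 0 (by omega)) * (c ^ i)⁻¹) := by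
    unfold T ss
    rw [map_mul, map_mul, map_pow, pow_two, pow_two]
    group
  rw [h4]
  exact mul_mem (mul_mem h0 (pow_mem h1 _)) h0

theorem T_mul (c a b : J) (i : ℕ) : T c (a * b) i = T c a i * T c b i := by unfold T; group

theorem T_T (c a : J) (i j : ℕ) : T c (T c a i) j = T c a (i + j) := by
  unfold T
  rw [add_comm i j, pow_add, mul_inv_rev]
  group

theorem CC_conj_ss {N : ℕ} (i : ℕ) (h : i + 2 < N) (ε : ℕ) :
    CC N ε * ((ss (N := N) i (by omega) : alternatingGroup (Pt N)) : Perm (Pt N)) * (CC N ε)⁻¹ = (ss (i + 1) h : Perm (Pt N)) := by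
  rw [coe_ss, coe_ss]
  have h1 : CC N ε * (swap (pt i (by omega)) (pt (i + 1) (by omega)) * kap N) * (CC N ε)⁻¹ =
      rot N * swap (pt i (by omega)) (pt (i + 1) (by omega)) * (rot N)⁻¹ *
      (rot N * kap N * (rot N)⁻¹) := by
    unfold CC
    have h2 : kap N ^ ε * (swap (pt i (by omega)) (pt (i + 1) (by omega)) * kap N) =
        swap (pt i (by omega)) (pt (i + 1) (by omega)) * kap N * kap N ^ ε := by
      have h3 : Commute (kap N) (swap (pt i (by omega)) (pt (i + 1) (by omega))) :=
        commute_kap fun b => swap_apply_of_ne_of_ne (by simp [pt]) (by simp [pt])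
      exact ((h3.mul_right (Commute.refl _)).pow_left ε).eq
    calc rot N * kap N ^ ε * (swap (pt i (by omega)) (pt (i + 1) (by omega)) * kap N) * (rot N * kap N ^ ε)⁻¹
        = rot N * (kap N ^ ε * (swap (pt i (by omega)) (pt (i + 1) (by omega)) * kap N)) * (rot N * kap N ^ ε)⁻¹ := by
          group
      _ = _ := by rw [h2]; group
  rw [h1, swap_conj, rot_apply (N := N) (i := i) (by omega), rot_apply (N := N) (i := i + 1) (by omega)]
  congr 1
  have : Commute (kap N) (rot N) := commute_kap rot_inr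
  rw [← this.eq, mul_inv_cancel_right]

theorem extA_ss {W N : ℕ} (h : W ≤ N) (i : ℕ) (hi : i + 1 < W) : extA h (ss i hi) = ss i (hi.trans_le h) := by
  unfold ss
  rw [map_mul, map_mul, map_pow, extA_xx, extA_xx]

theorem ss_fix {i j : ℕ} (h : i + 1 < N) (h' : j < N) (hij : i + 1 < j ∨ j < i) :
    (ss i h : Perm (Pt N)) (pt j h') = pt j h' := by
  unfold ss
  rw [Subgroup.coe_mul, Subgroup.coe_mul, Subgroup.coe_pow, mul_apply, mul_apply, pow_two, mul_apply,
    xx_fix _ _ (by omega), xx_fix _ _ (by omega), xx_fix _ _ (by omega), xx_fix _ _ (by omega)]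

theorem phi_ss_one (hWN : W < N) (H : Acts hWN φ c ε) (hW : 1 + 1 < W) (_ : 0 + 2 < W) :
    φ (ss 1 hW) = T c (φ (ss 0 (by omega))) 1 := by
  unfold T
  rw [pow_one]
  symm
  have h0 : ss 0 (by omega : 0 + 1 < W) = extA (Nat.sub_le W 1) (ss 0 (by omega)) := by rw [extA_ss]
  rw [h0]
  apply H
  rw [← h0, ← coe_extA, ← coe_extA, extA_ss, extA_ss, CC_conj_ss 0 (by omega)]

theorem T_tt_mem (hWN : W < N) (hN : N + 3 ≤ 2 * W) (H : Acts hWN φ c ε) {R : Subgroup J}
    (hR : ∀ i < N, X c (φ (xx 0 (by omega))) ((-1) ^ ε) i ∈ R) (i : ℕ) (hi : i + 2 < N) :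
    T c (φ (tt 0 (by omega))) i ∈ R := by
  rw [tt_zero_eq, map_mul, T_mul, phi_ss_one hWN H (by omega) (by omega), T_T]
  refine mul_mem (T_ss_mem hWN hN H hR i (by omega)) ?_
  rw [add_comm 1 i]
  exact T_ss_mem hWN hN H hR (i + 1) hi

/-- **The alternating case.** -/
theorem alt_surj (hWN : W < N) (hN : N + 3 ≤ 2 * W) (H : Acts hWN φ c ε)
    (hc : (φ (ss 0 (by omega)) * c) ^ (N - 1) = c ^ N)
    (htop : φ.range ⊔ Subgroup.zpowers c = ⊤) :
    ∃ Φ : alternatingGroup (Pt N) →* J, Function.Surjective Φ := by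
  have h1 : Commute (c ^ N) (φ (ss 0 (by omega))) := by
    have h2 : Commute (c ^ N) (φ (ss 0 (by omega)) * c) := by
      rw [← hc]; exact (Commute.refl _).pow_left _
    have h3 : Commute (c ^ N) c := (Commute.refl c).pow_left N
    have := h2.mul_right h3.inv_right
    rwa [mul_inv_cancel_right] at this
  have h2 : Commute (c ^ N) (φ (tt 0 (by omega))) := by
    rw [tt_zero_eq, map_mul, phi_ss_one hWN H (by omega) (by omega)]
    refine h1.mul_right ?_
    unfold T
    have h3 : Commute (c ^ N) (c ^ 1) := Commute.pow_pow_self c N 1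
    exact (h3.mul_right h1).mul_right h3.inv_right
  obtain ⟨Φ, hΦ1, hΦ2⟩ := exists_Phi hWN hN H h2
  refine ⟨Φ, ?_⟩
  rw [← MonoidHom.range_eq_top, eq_top_iff, ← htop, sup_le_iff]
  have hR : ∀ i < N, X c (φ (xx 0 (by omega))) ((-1) ^ ε) i ∈ Φ.range := by
    intro i hi
    rw [← hΦ2 i hi]
    exact ⟨_, rfl⟩
  constructor
  · rintro _ ⟨σ, rfl⟩
    rw [← hΦ1]; exact ⟨_, rfl⟩
  · rw [Subgroup.zpowers_le]
    have h3 := tele (c := c) (s := φ (ss 0 (by omega))) (R := Φ.range) (N - 1) fun i hi => T_ss_mem hWN hN H hR i (by omega)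
    rw [hc] at h3
    have h4 : c ^ N * (c ^ (N - 1))⁻¹ = c := by
      rw [show N = (N - 1) + 1 by omega, pow_succ', Nat.add_sub_cancel]; group
    rwa [h4] at h3

/-- **The symmetric case.** -/
theorem sym_card (hWN : W < N) (hN : N + 3 ≤ 2 * W) (H : Acts hWN φ c ε)
    (hc : ((φ (tt 0 (by omega)))⁻¹ * c) ^ (N - 2) = c ^ N)
    (htop : φ.range ⊔ Subgroup.zpowers c = ⊤) :
    Finite J ∧ Nat.card J ≤ 2 * Nat.card (alternatingGroup (Pt N)) := by
  have h1 : Commute (c ^ N) (φ (tt 0 (by omega))) := by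
    have h2 : Commute (c ^ N) ((φ (tt 0 (by omega)))⁻¹ * c) := by
      rw [← hc]; exact (Commute.refl _).pow_left _
    have h3 : Commute (c ^ N) c := (Commute.refl c).pow_left N
    have := h2.mul_right h3.inv_right
    rw [mul_inv_cancel_right] at this
    exact Commute.inv_right_iff.1 this
  obtain ⟨Φ, hΦ1, hΦ2⟩ := exists_Phi hWN hN H h1
  have hR : ∀ i < N, X c (φ (xx 0 (by omega))) ((-1) ^ ε) i ∈ Φ.range := by
    intro i hi
    rw [← hΦ2 i hi]
    exact ⟨_, rfl⟩
  have hc2 : c ^ 2 ∈ Φ.range := by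
    have h3 := tele (c := c) (s := (φ (tt 0 (by omega)))⁻¹) (R := Φ.range) (N - 2) fun i hi => by
      have h4 := inv_mem (T_tt_mem hWN hN H hR i (by omega))
      have h5 : (T c (φ (tt 0 (by omega))) i)⁻¹ = T c (φ (tt 0 (by omega)))⁻¹ i := by unfold T; group
      rwa [h5] at h4
    rw [hc] at h3
    have h4 : c ^ N * (c ^ (N - 2))⁻¹ = c ^ 2 := by
      rw [show N = 2 + (N - 2) by omega, pow_add, show 2 + (N - 2) - 2 = N - 2 by omega]; group
    rwa [h4] at h3
  -- `c` normalises the range
  have hnorm : ∀ g ∈ Φ.range, c * g * c⁻¹ ∈ Φ.range := by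
    have hle : Φ.range ≤ Φ.range.comap (MulAut.conj c).toMonoidHom := by
      have htop' := Cfsg.Agent.StdAlt.Carm.eq_top_of_cyc (Ω := Pt N) (c := Sum.inr false) (d := Sum.inr true) (by simp)
        (by simp; omega) ((Φ.range.comap (MulAut.conj c).toMonoidHom).comap Φ) (by
          rintro σ (i | b) h1 h2 hσ
          · have : σ = xx i.1 i.2 := Subtype.ext hσ
            rw [this]
            change c * Φ (xx i.1 i.2) * c⁻¹ ∈ Φ.range
            rw [hΦ2 i.1 i.2]
            by_cases hi : i.1 + 1 < N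
            · rw [X_succ]
              exact zpow_mem (hR _ hi) _
            · have h5 : i.1 = (i.1 - 1) + 1 := by have := i.2; omega
              rw [h5, ← X_succ' c _ _ (i.1 - 1)]
              have h6 := hR (i.1 - 1) (by omega)
              have h7 : c * (c * X c (φ (xx 0 (by omega))) ((-1) ^ ε) (i.1 - 1) ^ ((((-1) ^ ε : ℤˣ)) : ℤ) * c⁻¹) * c⁻¹ =
                  c ^ 2 * X c (φ (xx 0 (by omega))) ((-1) ^ ε) (i.1 - 1) ^ ((((-1) ^ ε : ℤˣ)) : ℤ) * (c ^ 2)⁻¹ := by
                rw [pow_two]; group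
              rw [h7]
              exact mul_mem (mul_mem hc2 (zpow_mem h6 _)) (inv_mem hc2)
          · cases b <;> simp at h1 h2)
      rintro _ ⟨σ, rfl⟩
      have : σ ∈ (Φ.range.comap (MulAut.conj c).toMonoidHom).comap Φ := by rw [htop']; exact Subgroup.mem_top _
      exact this
    intro g hg
    exact hle hg
  -- every element is in `R ∪ R c`
  have hall : ∀ g : J, g ∈ Φ.range ∨ g * c⁻¹ ∈ Φ.range := by
    have hset : ∀ g ∈ (φ.range ⊔ Subgroup.zpowers c : Subgroup J), g ∈ Φ.range ∨ g * c⁻¹ ∈ Φ.range := by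
      intro g hg
      rw [← Subgroup.closure_eq φ.range, Subgroup.zpowers_eq_closure c, ← Subgroup.closure_union] at hg
      induction hg using Subgroup.closure_induction_left with
      | one => exact Or.inl (one_mem _)
      | mul_left x hx y hy ih =>
        rcases hx with hx | hx
        · have hx' : x ∈ Φ.range := by
            obtain ⟨σ, rfl⟩ := hx
            rw [← hΦ1]; exact ⟨_, rfl⟩
          rcases ih with ih | ih
          · exact Or.inl (mul_mem hx' ih)
          · right
            rw [mul_assoc]; exact mul_mem hx' ih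
        · rw [Set.mem_singleton_iff] at hx
          subst hx
          rcases ih with ih | ih
          · exact Or.inr (hnorm y ih)
          · left
            have h1 : x * y = (x * (y * x⁻¹) * x⁻¹) * x ^ 2 := by rw [pow_two]; group
            rw [h1]
            exact mul_mem (hnorm _ ih) hc2
      | inv_mul_cancel x hx y hy ih =>
        rcases hx with hx | hx
        · have hx' : x ∈ Φ.range := by
            obtain ⟨σ, rfl⟩ := hx
            rw [← hΦ1]; exact ⟨_, rfl⟩
          rcases ih with ih | ih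
          · exact Or.inl (mul_mem (inv_mem hx') ih)
          · right
            rw [mul_assoc]; exact mul_mem (inv_mem hx') ih
        · rw [Set.mem_singleton_iff] at hx
          subst hx
          rcases ih with ih | ih
          · right
            have h1 : x⁻¹ * y * x⁻¹ = (x ^ 2)⁻¹ * (x * y * x⁻¹) := by rw [pow_two]; group
            rw [h1]
            exact mul_mem (inv_mem hc2) (hnorm _ ih)
          · left
            have h1 : x⁻¹ * y = (x ^ 2)⁻¹ * (x * (y * x⁻¹) * x⁻¹) * x ^ 2 := by rw [pow_two]; group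
            rw [h1]
            exact mul_mem (mul_mem (inv_mem hc2) (hnorm _ ih)) hc2
    intro g
    exact hset g (by rw [htop]; exact Subgroup.mem_top _)
  have hsurj : Function.Surjective (fun p : alternatingGroup (Pt N) × Bool => Φ p.1 * c ^ (cond p.2 1 0)) := by
    intro g
    rcases hall g with ⟨σ, hσ⟩ | ⟨σ, hσ⟩
    · exact ⟨(σ, false), by simp [hσ]⟩
    · exact ⟨(σ, true), by simp [hσ]⟩
  refine ⟨Finite.of_surjective _ hsurj, ?_⟩
  have := Nat.card_le_card_of_surjective _ hsurj
  rw [Nat.card_prod] at this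
  simp only [Nat.card_eq_fintype_card (α := Bool), Fintype.card_bool] at this
  omega

end abstract

end Cfsg.Agent.H110.Glue
end

-- part: H110/Track
section
/-!
# Presentations on given generators: free products, quotients, cyclic extensions (helper110, cluster S2284-S2297)

* `ker_of_inj` : the criterion `Quo.of_inj` for the kernel itself;
* `presOn_coprod`, `presOn_quo` : tracked versions of `HasPres.coprod`, `HasPres.quo`;
* `cyclic_ext_ker`, `cyclic_ext` : `G = A · ⟨c⟩`, `A` finite, normal and generated by two elements, `G/A` cyclic: three more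
  relators.
-/

set_option autoImplicit false

namespace Cfsg.Agent.H110.Track

open Cfsg.Agent.H111 Cfsg.Agent.H173.Pres

/-- The criterion `Quo.of_inj` for the kernel itself. -/
theorem ker_of_inj {P : Type*} {G : Type*} [Group P] [Group G] (f : P →* G)
    (R : List P) (hR : ∀ r ∈ R, f r = 1)
    (h : ∀ (φ : P →* P ⧸ Subgroup.normalClosure {r | r ∈ R}) (θ : P ⧸ Subgroup.normalClosure {r | r ∈ R} →* G),
      Function.Surjective φ → (∀ p, θ (φ p) = f p) → (∀ r ∈ R, φ r = 1) → Function.Injective θ) :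
    f.ker = Subgroup.normalClosure {r | r ∈ R} := by
  have hle : Subgroup.normalClosure {r | r ∈ R} ≤ f.ker :=
    Subgroup.normalClosure_le_normal fun r hr => hR r hr
  refine le_antisymm ?_ hle
  intro x hx
  have h1 := h (QuotientGroup.mk' _) (QuotientGroup.lift _ f hle) (QuotientGroup.mk'_surjective _)
    (fun p => rfl) (fun r hr => (QuotientGroup.eq_one_iff r).2 (Subgroup.subset_normalClosure hr))
  have h2 : (QuotientGroup.mk' (Subgroup.normalClosure {r | r ∈ R})) x = 1 := by
    apply h1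
    rw [map_one]
    exact hx
  exact (QuotientGroup.eq_one_iff x).1 h2

/-- from the kernel to `Quo` -/
theorem quo_of_ker {P : Type*} {G : Type*} [Group P] [Group G] (f : P →* G) (hf : Function.Surjective f)
    (R : List P) (h : f.ker = Subgroup.normalClosure {r | r ∈ R}) : Quo P G R.length := by
  classical
  refine ⟨f, R.toFinset, hf, List.toFinset_card_le R, ?_⟩
  have hset : (↑R.toFinset : Set P) = {r | r ∈ R} := by ext; simp
  rw [hset, h]

/-- from the kernel to `PresOn` -/
theorem presOn_of_ker {ι G : Type*} [Group G] (g : ι → G) (hf : Function.Surjective (FreeGroup.lift g))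
    (R : List (FreeGroup ι)) (h : (FreeGroup.lift g).ker = Subgroup.normalClosure {r | r ∈ R}) :
    PresOn g R.length := by
  classical
  refine ⟨hf, R.toFinset, List.toFinset_card_le R, ?_⟩
  have hset : (↑R.toFinset : Set (FreeGroup ι)) = {r | r ∈ R} := by ext; simp
  rw [hset, h]

section

variable {ι κ A B G : Type*} [Group A] [Group B] [Group G] {m m' : ℕ}

/-- tracked quotients -/
theorem presOn_quo {g : ι → A} (h : PresOn g m) (f : A →* G) (hf : Function.Surjective f) (R : List A)
    (hk : f.ker = Subgroup.normalClosure {r | r ∈ R}) : PresOn (fun i => f (g i)) (m + R.length) := by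
  classical
  obtain ⟨hs, R0, hR0, hk0⟩ := h
  have hfl : FreeGroup.lift (fun i => f (g i)) = f.comp (FreeGroup.lift g) := by ext i; simp
  have hlen : (R0.toList ++ R.map (Function.surjInv hs)).length ≤ m + R.length := by simpa using hR0
  refine (PresOn.of_list (fun i => f (g i)) (closure_of_surj _ (by rw [hfl]; exact hf.comp hs))
    (R0.toList ++ R.map (Function.surjInv hs)) ?_ ?_).mono hlen
  · intro r hr
    rw [hfl, MonoidHom.comp_apply]
    simp only [List.mem_append, Finset.mem_toList, List.mem_map] at hr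
    rcases hr with hr | ⟨x, hx, rfl⟩
    · have : r ∈ (FreeGroup.lift g).ker := by rw [hk0]; exact Subgroup.subset_normalClosure hr
      rw [MonoidHom.mem_ker.1 this, map_one]
    · rw [Function.surjInv_eq hs]
      have : x ∈ f.ker := by rw [hk]; exact Subgroup.subset_normalClosure hx
      exact this
  · intro φ hφ x hx
    have h1 : (FreeGroup.lift g).ker ≤ φ.ker := by
      rw [hk0]
      apply Subgroup.normalClosure_le_normal
      intro r hr
      exact hφ r (by simp only [List.mem_append, Finset.mem_toList]; exact Or.inl hr)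
    let ψ := (FreeGroup.lift g).liftOfSurjective hs ⟨_, h1⟩
    have hψ : ∀ y, ψ (FreeGroup.lift g y) = φ y := fun y =>
      (FreeGroup.lift g).liftOfRightInverse_comp_apply _ _ ⟨_, h1⟩ y
    have h2 : f.ker ≤ ψ.ker := by
      rw [hk]
      apply Subgroup.normalClosure_le_normal
      intro r hr
      have h3 := hφ (Function.surjInv hs r) (by
        simp only [List.mem_append, List.mem_map]
        exact Or.inr ⟨r, hr, rfl⟩)
      rw [← hψ, Function.surjInv_eq hs] at h3
      exact h3
    rw [MonoidHom.mem_ker, ← hψ]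
    apply h2
    rw [hfl] at hx
    exact hx

/-- tracked free products -/
theorem presOn_coprod {g : ι → A} {g' : κ → B} (h : PresOn g m) (h' : PresOn g' m') :
    PresOn (Sum.elim (fun i => (Monoid.Coprod.inl (g i) : Monoid.Coprod A B)) (fun j => Monoid.Coprod.inr (g' j)))
      (m + m') := by
  classical
  obtain ⟨hs, R, hR, hk⟩ := h
  obtain ⟨hs', R', hR', hk'⟩ := h'
  set G' : ι ⊕ κ → Monoid.Coprod A B :=
    Sum.elim (fun i => (Monoid.Coprod.inl (g i) : Monoid.Coprod A B)) (fun j => Monoid.Coprod.inr (g' j)) with hG'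
  have e1 : ∀ x, FreeGroup.lift G' (FreeGroup.map Sum.inl x) = Monoid.Coprod.inl (FreeGroup.lift g x) := by
    intro x
    have : (FreeGroup.lift G').comp (FreeGroup.map Sum.inl) = Monoid.Coprod.inl.comp (FreeGroup.lift g) := by
      ext i; simp [G']
    exact DFunLike.congr_fun this x
  have e2 : ∀ x, FreeGroup.lift G' (FreeGroup.map Sum.inr x) = Monoid.Coprod.inr (FreeGroup.lift g' x) := by
    intro x
    have : (FreeGroup.lift G').comp (FreeGroup.map Sum.inr) = Monoid.Coprod.inr.comp (FreeGroup.lift g') := by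
      ext i; simp [G']
    exact DFunLike.congr_fun this x
  have hsurj : Function.Surjective (FreeGroup.lift G') := by
    intro x
    induction x using Monoid.Coprod.induction_on with
    | inl a =>
      obtain ⟨y, rfl⟩ := hs a
      exact ⟨_, e1 y⟩
    | inr b =>
      obtain ⟨y, rfl⟩ := hs' b
      exact ⟨_, e2 y⟩
    | mul x y hx hy =>
      obtain ⟨a, rfl⟩ := hx
      obtain ⟨b, rfl⟩ := hy
      exact ⟨a * b, map_mul _ _ _⟩
  have hlen : (R.toList.map (FreeGroup.map (Sum.inl : ι → ι ⊕ κ)) ++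
      R'.toList.map (FreeGroup.map (Sum.inr : κ → ι ⊕ κ))).length ≤ m + m' := by
    simpa using add_le_add hR hR'
  refine (PresOn.of_list G' (closure_of_surj _ hsurj)
    (R.toList.map (FreeGroup.map (Sum.inl : ι → ι ⊕ κ)) ++
      R'.toList.map (FreeGroup.map (Sum.inr : κ → ι ⊕ κ))) ?_ ?_).mono hlen
  · intro r hr
    simp only [List.mem_append, Finset.mem_toList, List.mem_map] at hr
    rcases hr with ⟨x, hx, rfl⟩ | ⟨x, hx, rfl⟩
    · rw [e1]
      have : x ∈ (FreeGroup.lift g).ker := by rw [hk]; exact Subgroup.subset_normalClosure hx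
      rw [MonoidHom.mem_ker.1 this, map_one]
    · rw [e2]
      have : x ∈ (FreeGroup.lift g').ker := by rw [hk']; exact Subgroup.subset_normalClosure hx
      rw [MonoidHom.mem_ker.1 this, map_one]
  · intro φ hφ x hx
    have h1 : (FreeGroup.lift g).ker ≤ (φ.comp (FreeGroup.map Sum.inl)).ker := by
      rw [hk]
      apply Subgroup.normalClosure_le_normal
      intro r hr
      exact hφ _ (by
        simp only [List.mem_append, Finset.mem_toList, List.mem_map]
        exact Or.inl ⟨r, hr, rfl⟩)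
    have h2 : (FreeGroup.lift g').ker ≤ (φ.comp (FreeGroup.map Sum.inr)).ker := by
      rw [hk']
      apply Subgroup.normalClosure_le_normal
      intro r hr
      exact hφ _ (by
        simp only [List.mem_append, Finset.mem_toList, List.mem_map]
        exact Or.inr ⟨r, hr, rfl⟩)
    let ψ := (FreeGroup.lift g).liftOfSurjective hs ⟨_, h1⟩
    have hψ : ∀ y, ψ (FreeGroup.lift g y) = φ (FreeGroup.map Sum.inl y) := fun y =>
      (FreeGroup.lift g).liftOfRightInverse_comp_apply _ _ ⟨_, h1⟩ y
    let ψ' := (FreeGroup.lift g').liftOfSurjective hs' ⟨_, h2⟩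
    have hψ' : ∀ y, ψ' (FreeGroup.lift g' y) = φ (FreeGroup.map Sum.inr y) := fun y =>
      (FreeGroup.lift g').liftOfRightInverse_comp_apply _ _ ⟨_, h2⟩ y
    have e : (Monoid.Coprod.lift ψ ψ').comp (FreeGroup.lift G') = φ := by
      ext i
      rcases i with i | i
      · have := hψ (FreeGroup.of i)
        rw [FreeGroup.lift_apply_of, FreeGroup.map.of] at this
        rw [MonoidHom.comp_apply, FreeGroup.lift_apply_of]
        simp only [G', Sum.elim_inl, Monoid.Coprod.lift_apply_inl]
        exact this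
      · have := hψ' (FreeGroup.of i)
        rw [FreeGroup.lift_apply_of, FreeGroup.map.of] at this
        rw [MonoidHom.comp_apply, FreeGroup.lift_apply_of]
        simp only [G', Sum.elim_inr, Monoid.Coprod.lift_apply_inr]
        exact this
    rw [MonoidHom.mem_ker, ← e, MonoidHom.comp_apply, MonoidHom.mem_ker.1 hx, map_one]

/-- the free group on its generators -/
theorem presOn_free (ι : Type*) : PresOn (FreeGroup.of : ι → FreeGroup ι) 0 := by
  refine ⟨?_, ∅, by simp, ?_⟩
  · rw [FreeGroup.lift_of_eq_id]; exact Function.surjective_id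
  · rw [FreeGroup.lift_of_eq_id, Finset.coe_empty, Subgroup.normalClosure_empty]
    exact (MonoidHom.ker_eq_bot_iff _).2 Function.injective_id

/-- the form used below: one more generator, and the relators in `R` -/
theorem presOn_add_one {g : ι → A} (h : PresOn g m) (f : Monoid.Coprod A (FreeGroup (Fin 1)) →* G)
    (hf : Function.Surjective f) (R : List (Monoid.Coprod A (FreeGroup (Fin 1))))
    (hk : f.ker = Subgroup.normalClosure {r | r ∈ R}) :
    PresOn (Sum.elim (fun i => f (Monoid.Coprod.inl (g i))) fun _ : Fin 1 => f (Monoid.Coprod.inr (FreeGroup.of 0)))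
      (m + R.length) := by
  have h1 := presOn_quo (presOn_coprod h (presOn_free (Fin 1))) f hf R hk
  rw [add_zero] at h1
  convert h1 using 1
  ext i
  rcases i with i | i
  · rfl
  · have : i = 0 := Subsingleton.elim _ _
    subst this
    rfl

end

section cyclic

variable {A G J : Type*} [Group A] [Group G] [Group J]

/-- Cyclic extensions, the core: `J = α(A) ⟨c⟩` with the relations of the extension maps injectively. -/
theorem cyclic_core [Finite A] (α : A →* J) (c : J) (hJ : α.range ⊔ Subgroup.zpowers c = ⊤) (θ : J →* G)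
    (hθ : Function.Injective (θ.comp α)) {a b a' b' z : A} (hab : Subgroup.closure {a, b} = ⊤)
    {n : ℕ} (hn : 0 < n) (e1 : c * α a * c⁻¹ = α a') (e2 : c * α b * c⁻¹ = α b') (e3 : c ^ n = α z)
    (hj : ∀ j, 0 < j → j < n → ∀ x : A, θ c ^ j ≠ θ (α x)) : Function.Injective θ := by
  have hfin : Finite α.range := inferInstanceAs (Finite (Set.range α))
  have hconj : ∀ x ∈ α.range, c * x * c⁻¹ ∈ α.range := by
    rintro _ ⟨x, rfl⟩
    have hx : x ∈ Subgroup.closure {a, b} := by rw [hab]; exact Subgroup.mem_top _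
    induction hx using Subgroup.closure_induction with
    | mem x hx =>
      rcases hx with rfl | hx
      · rw [e1]; exact ⟨_, rfl⟩
      · rw [Set.mem_singleton_iff] at hx; subst hx
        rw [e2]; exact ⟨_, rfl⟩
    | one => rw [map_one, mul_one, mul_inv_cancel]; exact one_mem _
    | mul x y hx hy h1 h2 =>
      have : c * α (x * y) * c⁻¹ = (c * α x * c⁻¹) * (c * α y * c⁻¹) := by
        rw [map_mul]; group
      rw [this]; exact mul_mem h1 h2
    | inv x hx h1 =>
      have : c * α x⁻¹ * c⁻¹ = (c * α x * c⁻¹)⁻¹ := by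
        rw [map_inv]; group
      rw [this]; exact inv_mem h1
  -- conjugation by `c` is a bijection of the range
  have hmap : α.range.map (MulAut.conj c).toMonoidHom = α.range := by
    have hle : α.range.map (MulAut.conj c).toMonoidHom ≤ α.range := by
      rintro _ ⟨x, hx, rfl⟩
      exact hconj x hx
    have hcard : Nat.card (α.range.map (MulAut.conj c).toMonoidHom) = Nat.card α.range :=
      Subgroup.card_map_of_injective (MulAut.conj c).injective
    exact Subgroup.eq_of_le_of_card_ge hle hcard.ge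
  have hnorm : c ∈ Subgroup.normalizer (α.range : Set J) := by
    rw [Subgroup.mem_normalizer_iff]
    intro x
    constructor
    · exact hconj x
    · intro hx
      have hx' : c * x * c⁻¹ ∈ α.range.map (MulAut.conj c).toMonoidHom := by rw [hmap]; exact hx
      obtain ⟨y, hy, e⟩ := hx'
      have : y = x := (MulAut.conj c).injective e
      rw [← this]; exact hy
  have hnt : α.range.Normal := by
    rw [← Subgroup.normalizer_eq_top_iff, eq_top_iff, ← hJ, sup_le_iff]
    exact ⟨Subgroup.le_normalizer, by rwa [Subgroup.zpowers_le]⟩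
  -- every element is a product
  have hprod : ∀ y : J, ∃ x : A, ∃ k : ℤ, y = α x * c ^ k := by
    intro y
    have hy : y ∈ α.range ⊔ Subgroup.zpowers c := by rw [hJ]; exact Subgroup.mem_top _
    rw [Subgroup.mem_sup_of_normal_left] at hy
    obtain ⟨_, ⟨x, rfl⟩, _, ⟨k, rfl⟩, rfl⟩ := hy
    exact ⟨x, k, rfl⟩
  have hprod' : ∀ y : J, ∃ x : A, ∃ k : ℕ, k < n ∧ y = α x * c ^ k := by
    intro y
    obtain ⟨x, k, h1⟩ := hprod y
    have hn' : (0 : ℤ) < n := by exact_mod_cast hn
    have h2 := Int.emod_nonneg k hn'.ne'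
    have h3 := Int.emod_lt_of_pos k hn'
    refine ⟨x * z ^ (k / n), (k % n).toNat, by omega, ?_⟩
    rw [h1, map_mul, map_zpow, ← e3, mul_assoc]
    congr 1
    rw [← zpow_natCast c (k % n).toNat, Int.toNat_of_nonneg h2, ← zpow_natCast c n, ← zpow_mul, ← zpow_add,
      Int.mul_ediv_add_emod]
  rw [injective_iff_map_eq_one]
  intro y hy
  obtain ⟨x, k, hk, rfl⟩ := hprod' y
  rw [map_mul, map_pow] at hy
  rcases Nat.eq_zero_or_pos k with rfl | hk0
  · rw [pow_zero, mul_one] at hy ⊢
    have h3 : x = 1 := hθ (by rw [map_one]; exact hy)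
    rw [h3, map_one]
  · refine absurd ?_ (hj k hk0 hk x⁻¹)
    rw [map_inv, map_inv]
    exact (inv_eq_of_mul_eq_one_right hy).symm

theorem coprod_range_sup {B : Type*} [Group B] (φ : Monoid.Coprod A (FreeGroup (Fin 1)) →* B)
    (hφ : Function.Surjective φ) :
    (φ.comp Monoid.Coprod.inl).range ⊔ Subgroup.zpowers (φ (Monoid.Coprod.inr (FreeGroup.of 0))) = ⊤ := by
  rw [eq_top_iff]
  rintro g -
  obtain ⟨x, rfl⟩ := hφ g
  induction x using Monoid.Coprod.induction_on with
  | inl a => exact Subgroup.mem_sup_left ⟨a, rfl⟩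
  | inr y =>
    apply Subgroup.mem_sup_right
    induction y using FreeGroup.induction_on with
    | C1 => simp
    | of i =>
      have : i = 0 := Subsingleton.elim _ _
      subst this
      exact Subgroup.mem_zpowers _
    | inv_of i h => rw [map_inv, map_inv]; exact inv_mem h
    | mul y z hy hz => rw [map_mul, map_mul]; exact mul_mem hy hz
  | mul x y hx hy => rw [map_mul]; exact mul_mem hx hy

/-- **Cyclic extensions.**  `A ≤ G` (via `i`) is finite and generated by two elements, `c` normalizes it, `G = A⟨c⟩` and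
`n` is the order of `c` modulo `A`.  A presentation of `A` on the family `g` gives one of `G` on `g` and `c`, with three
more relators. -/
theorem cyclic_ext [Finite A] {ι : Type*} {g : ι → A} {m : ℕ} (h : PresOn g m) (i : A →* G)
    (hi : Function.Injective i) (c : G) (hG : i.range ⊔ Subgroup.zpowers c = ⊤)
    (hg : ∃ a b : A, Subgroup.closure {a, b} = ⊤) (hc : ∀ x : A, c * i x * c⁻¹ ∈ i.range)
    {n : ℕ} (hn : 0 < n) (hz : c ^ n ∈ i.range) (hj : ∀ j, 0 < j → j < n → c ^ j ∉ i.range) :
    PresOn (Sum.elim (fun j => i (g j)) fun _ : Fin 1 => c) (m + 3) := by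
  obtain ⟨a, b, hab⟩ := hg
  obtain ⟨a', ha'⟩ := hc a
  obtain ⟨b', hb'⟩ := hc b
  obtain ⟨z, hz⟩ := hz
  let f : Monoid.Coprod A (FreeGroup (Fin 1)) →* G := Monoid.Coprod.lift i (FreeGroup.lift fun _ => c)
  let cc : Monoid.Coprod A (FreeGroup (Fin 1)) := Monoid.Coprod.inr (FreeGroup.of 0)
  have hcc : f cc = c := by simp [f, cc]
  have hfl : ∀ σ, f (Monoid.Coprod.inl σ) = i σ := fun σ => by simp [f]
  have hf : Function.Surjective f := by
    rw [← MonoidHom.range_eq_top, eq_top_iff, ← hG, sup_le_iff]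
    constructor
    · rintro _ ⟨x, rfl⟩
      exact ⟨Monoid.Coprod.inl x, hfl x⟩
    · rw [Subgroup.zpowers_le]
      exact ⟨cc, hcc⟩
  have hk := ker_of_inj f
    [cc * Monoid.Coprod.inl a * cc⁻¹ * (Monoid.Coprod.inl a')⁻¹,
     cc * Monoid.Coprod.inl b * cc⁻¹ * (Monoid.Coprod.inl b')⁻¹,
     cc ^ n * (Monoid.Coprod.inl z)⁻¹] (by
      intro r hr
      simp only [List.mem_cons, List.not_mem_nil, or_false] at hr
      rcases hr with rfl | rfl | rfl
      · rw [map_mul, map_mul, map_mul, map_inv, map_inv, mul_inv_eq_one, hcc, hfl, hfl, ha']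
      · rw [map_mul, map_mul, map_mul, map_inv, map_inv, mul_inv_eq_one, hcc, hfl, hfl, hb']
      · rw [map_mul, map_pow, map_inv, mul_inv_eq_one, hcc, hfl, hz]) (by
      intro φ θ hφ hθ hR
      have e1 := hR _ (List.mem_cons_self)
      have e2 := hR _ (List.mem_cons_of_mem _ (List.mem_cons_self))
      have e3 := hR _ (List.mem_cons_of_mem _ (List.mem_cons_of_mem _ (List.mem_cons_self)))
      rw [map_mul, map_mul, map_mul, map_inv, map_inv, mul_inv_eq_one] at e1 e2
      rw [map_mul, map_pow, map_inv, mul_inv_eq_one] at e3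
      have hθi : ∀ x, θ (φ (Monoid.Coprod.inl x)) = i x := fun x => by rw [hθ, hfl]
      refine cyclic_core (φ.comp Monoid.Coprod.inl) (φ cc) (coprod_range_sup φ hφ) θ ?_ hab hn e1 e2 e3 ?_
      · intro x y hxy
        apply hi
        rw [← hθi, ← hθi]
        exact hxy
      · intro j hj0 hjn x hx
        apply hj j hj0 hjn
        refine ⟨x, ?_⟩
        rw [← hθi, ← hcc, ← hθ]
        exact hx.symm)
  have h1 := presOn_add_one h f hf _ hk
  have e : (Sum.elim (fun j => i (g j)) fun _ : Fin 1 => c) =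
      (Sum.elim (fun i => f (Monoid.Coprod.inl (g i))) fun _ : Fin 1 => f (Monoid.Coprod.inr (FreeGroup.of 0))) := by
    ext j
    rcases j with j | j
    · exact (hfl _).symm
    · exact hcc.symm
  rw [e]
  exact h1

end cyclic

end Cfsg.Agent.H110.Track
end
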